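import Mathlib

/-!
# Linear algebra behind the Laffey–MacHale three-orbit theorem

`fwd_lin`: an operator `T` of prime order `q` without fixed points on a finite `𝔽_p`-space `V`
such that the normalizer of `⟨T⟩` in `GL(V)` is transitive on nonzero vectors and induces all
powers `T ↦ T^k` forces `p` to be a primitive root mod `q`.
-/

set_option autoImplicit false

namespace Cfsg.Agent.Lib.Helper68.AutOrbit

open Polynomial

section lin

variable {p q : ℕ} [Fact p.Prime] [Fact q.Prime]
variable {V : Type*} [AddCommGroup V] [Module (ZMod p) V]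

theorem conj_pow (T : Module.End (ZMod p) V) (k : ℕ) (α : V ≃ₗ[ZMod p] V)
    (h : ∀ u, α (T u) = (T ^ k) (α u)) (n : ℕ) (u : V) :
    α ((T ^ n) u) = ((T ^ k) ^ n) (α u) := by
  induction n generalizing u with
  | zero => simp
  | succ n ih =>
    rw [pow_succ, Module.End.mul_apply, ih, h, pow_succ, Module.End.mul_apply]

theorem conj_aeval (T : Module.End (ZMod p) V) (k : ℕ) (α : V ≃ₗ[ZMod p] V)
    (h : ∀ u, α (T u) = (T ^ k) (α u)) (f : (ZMod p)[X]) (u : V) :
    α (aeval T f u) = aeval (T ^ k) f (α u) := by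
  induction f using Polynomial.induction_on' with
  | add f g hf hg => simp [hf, hg]
  | monomial n c =>
    rw [aeval_monomial, aeval_monomial, Module.End.mul_apply, Module.End.mul_apply,
      Module.algebraMap_end_apply, Module.algebraMap_end_apply, map_smul, conj_pow T k α h]

theorem aeval_pow_eq (T : Module.End (ZMod p) V) (k : ℕ) (f : (ZMod p)[X]) :
    aeval (T ^ k) f = aeval T (f.comp (X ^ k)) := by
  rw [aeval_comp, map_pow, aeval_X]

/-- the cyclic submodule generated by `v` under `T` -/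
noncomputable def cyc (T : Module.End (ZMod p) V) (v : V) : Submodule (ZMod p) V :=
  LinearMap.range ((LinearMap.applyₗ v).comp (aeval T).toLinearMap)

theorem mem_cyc (T : Module.End (ZMod p) V) (v w : V) :
    w ∈ cyc T v ↔ ∃ f : (ZMod p)[X], aeval T f v = w := by
  unfold cyc
  rw [LinearMap.mem_range]
  rfl

theorem self_mem_cyc (T : Module.End (ZMod p) V) (v : V) : v ∈ cyc T v := by
  rw [mem_cyc]
  exact ⟨1, by simp⟩

theorem cyc_le (T : Module.End (ZMod p) V) (v w : V) (h : w ∈ cyc T v) : cyc T w ≤ cyc T v := by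
  rw [mem_cyc] at h
  obtain ⟨f, rfl⟩ := h
  intro z hz
  rw [mem_cyc] at hz ⊢
  obtain ⟨g, rfl⟩ := hz
  exact ⟨g * f, by rw [map_mul, Module.End.mul_apply]⟩

theorem fwd_lin (hpq : p ≠ q) [Finite V] [Nontrivial V]
    (T : Module.End (ZMod p) V) (hTq : T ^ q = 1) (hfix : ∀ v, T v = v → v = 0)
    (h1 : ∀ k : ℕ, ¬ q ∣ k → ∃ α : V ≃ₗ[ZMod p] V, ∀ u, α (T u) = (T ^ k) (α u))
    (h2 : ∀ v w : V, v ≠ 0 → w ≠ 0 →
      ∃ (α : V ≃ₗ[ZMod p] V) (k : ℕ), (∀ u, α (T u) = (T ^ k) (α u)) ∧ α v = w) :
    orderOf (p : ZMod q) = q - 1 := by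
  classical
  have hp : p.Prime := Fact.out
  have hq : q.Prime := Fact.out
  -- all cyclic submodules of nonzero vectors have the same dimension
  have P3 : ∀ v w : V, v ≠ 0 → w ≠ 0 →
      Module.finrank (ZMod p) (cyc T v) ≤ Module.finrank (ZMod p) (cyc T w) := by
    intro v w hv hw
    obtain ⟨α, k, hα, hvw⟩ := h2 v w hv hw
    have hle : (cyc T v).map (α : V →ₗ[ZMod p] V) ≤ cyc T w := by
      rintro z ⟨y, hy, rfl⟩
      rw [SetLike.mem_coe, mem_cyc] at hy
      obtain ⟨f, rfl⟩ := hy
      rw [mem_cyc]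
      refine ⟨f.comp (X ^ k), ?_⟩
      rw [← aeval_pow_eq, ← hvw]
      exact (conj_aeval T k α hα f v).symm
    calc Module.finrank (ZMod p) (cyc T v)
        = Module.finrank (ZMod p) ((cyc T v).map (α : V →ₗ[ZMod p] V)) :=
          (LinearEquiv.finrank_map_eq α (cyc T v)).symm
      _ ≤ _ := Submodule.finrank_mono hle
  have P4 : ∀ v w : V, v ≠ 0 → w ≠ 0 → w ∈ cyc T v → cyc T w = cyc T v := by
    intro v w hv hw hwv
    exact Submodule.eq_of_le_of_finrank_le (cyc_le T v w hwv) (P3 v w hv hw)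
  -- Step A
  have stepA : ∀ (g : (ZMod p)[X]) (v : V), v ≠ 0 → aeval T g v = 0 → aeval T g = 0 := by
    intro g v hv hgv
    by_contra hne
    obtain ⟨w, hw⟩ : ∃ w, aeval T g w ≠ 0 := by
      by_contra hall
      push Not at hall
      exact hne (LinearMap.ext fun w => by simpa using hall w)
    have hw0 : w ≠ 0 := by
      rintro rfl
      exact hw (map_zero _)
    have hz : aeval T g (v + w) = aeval T g w := by rw [map_add, hgv, zero_add]
    have hu0 : v + w ≠ 0 := by
      intro h0
      rw [h0, map_zero] at hz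
      exact hw hz.symm
    have e1 : cyc T (aeval T g w) = cyc T (v + w) := by
      apply P4 _ _ hu0 hw
      rw [mem_cyc]
      exact ⟨g, hz⟩
    have e2 : cyc T (aeval T g w) = cyc T w := by
      apply P4 _ _ hw0 hw
      rw [mem_cyc]
      exact ⟨g, rfl⟩
    have e3 : v + w ∈ cyc T w := by
      rw [← e2, e1]
      exact self_mem_cyc T _
    have e4 : v ∈ cyc T w := by
      have := (cyc T w).sub_mem e3 (self_mem_cyc T w)
      simpa using this
    have e5 : cyc T v = cyc T w := P4 w v hw0 hv e4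
    have e6 : w ∈ cyc T v := by
      rw [e5]
      exact self_mem_cyc T w
    rw [mem_cyc] at e6
    obtain ⟨h, rfl⟩ := e6
    apply hw
    rw [← Module.End.mul_apply, ← map_mul, mul_comm, map_mul, Module.End.mul_apply, hgv, map_zero]
  -- the minimal polynomial
  have hint : IsIntegral (ZMod p) T := IsIntegral.of_finite _ _
  set μ := minpoly (ZMod p) T with hμ
  have hμ0 : aeval T μ = 0 := minpoly.aeval _ _
  have hμne : μ ≠ 0 := minpoly.ne_zero hint
  have hzero_of_dvd : ∀ f : (ZMod p)[X], μ ∣ f → aeval T f = 0 := by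
    rintro f ⟨g, rfl⟩
    rw [map_mul, hμ0, zero_mul]
  have hirr : Irreducible μ := by
    rw [irreducible_iff]
    refine ⟨minpoly.not_isUnit _ _, ?_⟩
    intro a b hab
    have ha0 : a ≠ 0 := by
      rintro rfl
      rw [zero_mul] at hab
      exact hμne hab
    have hb0 : b ≠ 0 := by
      rintro rfl
      rw [mul_zero] at hab
      exact hμne hab
    have hprod : aeval T a * aeval T b = 0 := by
      rw [← map_mul, ← hab, hμ0]
    have hdeg : μ.natDegree = a.natDegree + b.natDegree := by
      rw [hab, natDegree_mul ha0 hb0]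
    by_cases hb : aeval T b = 0
    · left
      have h3 : μ ∣ b := minpoly.dvd _ _ hb
      have h4 := natDegree_le_of_dvd h3 hb0
      have h5 : a.natDegree = 0 := by omega
      rw [natDegree_eq_zero] at h5
      obtain ⟨c, rfl⟩ := h5
      have hc : c ≠ 0 := by
        rintro rfl
        exact ha0 (by simp)
      exact isUnit_C.mpr (isUnit_iff_ne_zero.mpr hc)
    · right
      obtain ⟨w, hw⟩ : ∃ w, aeval T b w ≠ 0 := by
        by_contra hall
        push Not at hall
        exact hb (LinearMap.ext fun w => by simpa using hall w)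
      have h2' : aeval T a (aeval T b w) = 0 := by
        rw [← Module.End.mul_apply, hprod]
        rfl
      have ha : aeval T a = 0 := stepA a _ hw h2'
      have h3 : μ ∣ a := minpoly.dvd _ _ ha
      have h4 := natDegree_le_of_dvd h3 ha0
      have h5 : b.natDegree = 0 := by omega
      rw [natDegree_eq_zero] at h5
      obtain ⟨c, rfl⟩ := h5
      have hc : c ≠ 0 := by
        rintro rfl
        exact hb0 (by simp)
      exact isUnit_C.mpr (isUnit_iff_ne_zero.mpr hc)
  -- μ divides the cyclotomic polynomial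
  have hcyc0 : aeval T (cyclotomic q (ZMod p)) = 0 := by
    apply LinearMap.ext
    intro u
    rw [LinearMap.zero_apply]
    apply hfix
    have h3 : aeval T ((X - 1) * cyclotomic q (ZMod p)) = 0 := by
      rw [mul_comm, cyclotomic_prime_mul_X_sub_one]
      simp [hTq]
    have h4 := congrArg (fun F : Module.End (ZMod p) V => F u) h3
    simp only [map_mul, map_sub, aeval_X, map_one, Module.End.mul_apply, LinearMap.sub_apply,
      Module.End.one_apply, LinearMap.zero_apply] at h4
    exact sub_eq_zero.mp h4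
  have hμcyc : μ ∣ cyclotomic q (ZMod p) := minpoly.dvd _ _ hcyc0
  have hcop : p.Coprime q := (Nat.coprime_primes hp hq).mpr hpq
  have hdeg : μ.natDegree = orderOf (p : ZMod q) := by
    have h3 := natDegree_of_dvd_cyclotomic_of_irreducible (K := ZMod p) (p := p) (f := 1) (n := q)
      (by simp [ZMod.card]) hcop hμcyc hirr
    rw [h3, ← orderOf_units, ZMod.coe_unitOfCoprime]
    simp
  -- the root field
  have : Fact (Irreducible μ) := ⟨hirr⟩
  set θ : AdjoinRoot μ := AdjoinRoot.root μ with hθ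
  have hθq : θ ^ q = 1 := by
    have h3 : μ ∣ X ^ q - 1 := minpoly.dvd _ _ (by simp [hTq])
    have h4 := AdjoinRoot.mk_eq_zero.mpr h3
    rw [map_sub, map_pow, AdjoinRoot.mk_X, map_one, sub_eq_zero] at h4
    exact h4
  have hθ1 : θ ≠ 1 := by
    intro h
    have h3 : AdjoinRoot.mk μ (X - 1) = 0 := by
      rw [map_sub, AdjoinRoot.mk_X, map_one, ← hθ, h, sub_self]
    have h4 := hzero_of_dvd _ (AdjoinRoot.mk_eq_zero.mp h3)
    obtain ⟨v, hv⟩ := exists_ne (0 : V)
    apply hv
    apply hfix
    have h5 := congrArg (fun F : Module.End (ZMod p) V => F v) h4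
    simp only [map_sub, aeval_X, map_one, LinearMap.sub_apply, Module.End.one_apply,
      LinearMap.zero_apply] at h5
    exact sub_eq_zero.mp h5
  have hord : orderOf θ = q := orderOf_eq_prime hθq hθ1
  have hroot : ∀ k : ℕ, ¬ q ∣ k → aeval (θ ^ k) μ = 0 := by
    intro k hk
    obtain ⟨α, hα⟩ := h1 k hk
    have h3 : aeval (T ^ k) μ = 0 := by
      apply LinearMap.ext
      intro u
      obtain ⟨u', rfl⟩ := α.surjective u
      rw [← conj_aeval T k α hα, hμ0]
      simp
    rw [aeval_pow_eq] at h3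
    have h4 : μ ∣ μ.comp (X ^ k) := minpoly.dvd _ _ h3
    have h5 := AdjoinRoot.mk_eq_zero.mpr h4
    rw [← AdjoinRoot.aeval_eq, aeval_comp, map_pow, aeval_X] at h5
    exact h5
  have hcard : q - 1 ≤ μ.natDegree := by
    set Z : Finset (AdjoinRoot μ) := (Finset.Icc 1 (q - 1)).image (fun k => θ ^ k) with hZ
    have hZcard : Z.card = q - 1 := by
      rw [hZ, Finset.card_image_of_injOn, Nat.card_Icc]
      · omega
      · intro a ha b hb hab
        rw [Finset.coe_Icc, Set.mem_Icc] at ha hb
        have hq2 := hq.two_le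
        apply pow_injOn_Iio_orderOf (x := θ)
        · rw [Set.mem_Iio, hord]; omega
        · rw [Set.mem_Iio, hord]; omega
        · exact hab
    have hsub : Z.val ⊆ (μ.map (algebraMap (ZMod p) (AdjoinRoot μ))).roots := by
      intro z hz
      rw [Finset.mem_val, hZ, Finset.mem_image] at hz
      obtain ⟨k, hk, rfl⟩ := hz
      rw [Finset.mem_Icc] at hk
      have hq2 := hq.two_le
      have hkq : ¬ q ∣ k := by
        intro hd
        have := Nat.le_of_dvd (by omega) hd
        omega
      rw [mem_roots (map_ne_zero hμne), IsRoot.def, eval_map_algebraMap]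
      exact hroot k hkq
    have h6 := card_le_degree_of_subset_roots hsub
    rw [hZcard] at h6
    exact h6.trans natDegree_map_le
  have hle : μ.natDegree ≤ q - 1 := by
    have h3 := natDegree_le_of_dvd hμcyc (cyclotomic_ne_zero q (ZMod p))
    rw [natDegree_cyclotomic, Nat.totient_prime hq] at h3
    exact h3
  omega

theorem aeval_cyclotomic_eq_zero (S : Module.End (ZMod p) V) (hSq : S ^ q = 1)
    (hfix : ∀ v, S v = v → v = 0) : aeval S (cyclotomic q (ZMod p)) = 0 := by
  apply LinearMap.ext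
  intro u
  rw [LinearMap.zero_apply]
  apply hfix
  have h3 : aeval S ((X - 1) * cyclotomic q (ZMod p)) = 0 := by
    rw [mul_comm, cyclotomic_prime_mul_X_sub_one]
    simp [hSq]
  have h4 := congrArg (fun F : Module.End (ZMod p) V => F u) h3
  simp only [map_mul, map_sub, aeval_X, map_one, Module.End.mul_apply, LinearMap.sub_apply,
    Module.End.one_apply, LinearMap.zero_apply] at h4
  exact sub_eq_zero.mp h4

/-- the ring homomorphism `𝔽_p[X]/(Φ_q) → End V` given by an operator killed by `Φ_q` -/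
noncomputable def rho (S : Module.End (ZMod p) V) (hS : aeval S (cyclotomic q (ZMod p)) = 0) :
    AdjoinRoot (cyclotomic q (ZMod p)) →+* Module.End (ZMod p) V :=
  Ideal.Quotient.lift (Ideal.span {cyclotomic q (ZMod p)}) (aeval S).toRingHom (by
    intro a ha
    rw [Ideal.mem_span_singleton] at ha
    obtain ⟨c, rfl⟩ := ha
    simp [hS])

omit [Fact (Nat.Prime q)] in
theorem rho_root (S : Module.End (ZMod p) V) (hS : aeval S (cyclotomic q (ZMod p)) = 0) :
    rho S hS (AdjoinRoot.root _) = S := by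
  show Ideal.Quotient.lift _ _ _ (Ideal.Quotient.mk _ X) = S
  rw [Ideal.Quotient.lift_mk]
  simp

/-- `V` as a module over `𝔽_p[X]/(Φ_q)` through the operator `S` -/
def Tw (S : Module.End (ZMod p) V) (_hS : aeval S (cyclotomic q (ZMod p)) = 0) : Type _ := V

instance instAddCommGroupTw (S : Module.End (ZMod p) V) (hS : aeval S (cyclotomic q (ZMod p)) = 0) :
    AddCommGroup (Tw S hS) := inferInstanceAs (AddCommGroup V)

noncomputable instance instModuleTw (S : Module.End (ZMod p) V)
    (hS : aeval S (cyclotomic q (ZMod p)) = 0) :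
    Module (AdjoinRoot (cyclotomic q (ZMod p))) (Tw S hS) :=
  Module.compHom V (rho S hS)

instance instFiniteTw [Finite V] (S : Module.End (ZMod p) V)
    (hS : aeval S (cyclotomic q (ZMod p)) = 0) : Finite (Tw S hS) := inferInstanceAs (Finite V)

omit [Fact (Nat.Prime q)] in
theorem root_smul (S : Module.End (ZMod p) V) (hS : aeval S (cyclotomic q (ZMod p)) = 0)
    (v : Tw S hS) : (AdjoinRoot.root (cyclotomic q (ZMod p))) • v = S v := by
  show (rho S hS (AdjoinRoot.root _)) v = S v
  rw [rho_root]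

/-- the general linear group of a vector space is transitive on nonzero vectors -/
theorem exists_linearEquiv_apply_eq {K W : Type*} [Field K] [AddCommGroup W] [Module K W]
    (v w : W) (hv : v ≠ 0) (hw : w ≠ 0) : ∃ e : W ≃ₗ[K] W, e v = w := by
  obtain ⟨f₁, hf₁⟩ := Module.Projective.exists_dual_eq_one K hv
  obtain ⟨f₂, hf₂⟩ := Module.Projective.exists_dual_eq_one K hw
  obtain ⟨f, hfv, hfw⟩ : ∃ f : Module.Dual K W, f v = 1 ∧ f w ≠ 0 := by
    by_cases h1 : f₁ w = 0
    · by_cases h2 : f₂ v = 0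
      · refine ⟨f₁ + f₂, ?_, ?_⟩
        · rw [LinearMap.add_apply, hf₁, h2, add_zero]
        · rw [LinearMap.add_apply, h1, hf₂, zero_add]
          exact one_ne_zero
      · refine ⟨(f₂ v)⁻¹ • f₂, ?_, ?_⟩
        · rw [LinearMap.smul_apply, smul_eq_mul, inv_mul_cancel₀ h2]
        · rw [LinearMap.smul_apply, smul_eq_mul, hf₂, mul_one]
          exact inv_ne_zero h2
    · exact ⟨f₁, hf₁, h1⟩
  have hu : IsUnit (1 + f (w - v)) := by
    rw [map_sub, hfv, add_sub_cancel]
    exact isUnit_iff_ne_zero.mpr hfw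
  refine ⟨LinearEquiv.dilatransvection hu, ?_⟩
  rw [LinearEquiv.dilatransvection.apply, hfv, one_smul, add_sub_cancel]

theorem bwd_lin (hpq : p ≠ q) (hord : orderOf (p : ZMod q) = q - 1) [Finite V]
    (T : Module.End (ZMod p) V) (hTq : T ^ q = 1) (hfix : ∀ v, T v = v → v = 0) :
    (∀ v w : V, v ≠ 0 → w ≠ 0 → ∃ α : V ≃+ V, (∀ u, α (T u) = T (α u)) ∧ α v = w) ∧
    (∀ k : ℕ, ¬ q ∣ k → ∃ α : V ≃+ V, ∀ u, α (T u) = (T ^ k) (α u)) := by
  have hp : p.Prime := Fact.out
  have hq : q.Prime := Fact.out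
  have hpnq : ¬ p ∣ q := fun h => hpq ((Nat.prime_dvd_prime_iff_eq hp hq).mp h)
  have hirr : Irreducible (cyclotomic q (ZMod p)) := by
    apply ZMod.irreducible_of_dvd_cyclotomic_of_natDegree hpnq dvd_rfl
    rw [natDegree_cyclotomic, Nat.totient_prime hq, ← hord, ← orderOf_units,
      ZMod.coe_unitOfCoprime]
  have : Fact (Irreducible (cyclotomic q (ZMod p))) := ⟨hirr⟩
  have hT : aeval T (cyclotomic q (ZMod p)) = 0 := aeval_cyclotomic_eq_zero T hTq hfix
  constructor
  · intro v w hv hw
    have h9 := exists_linearEquiv_apply_eq (K := AdjoinRoot (cyclotomic q (ZMod p)))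
      (W := Tw T hT) v w hv hw
    obtain ⟨e, he⟩ := h9
    refine ⟨e.toAddEquiv, ?_, he⟩
    intro u
    have h3 := e.map_smul (AdjoinRoot.root (cyclotomic q (ZMod p))) (u : Tw T hT)
    rw [root_smul T hT (e u), root_smul T hT u] at h3
    exact h3
  · intro k hk
    have hTk : (T ^ k) ^ q = 1 := by
      rw [← pow_mul, mul_comm, pow_mul, hTq, one_pow]
    have hfixk : ∀ v, (T ^ k) v = v → v = 0 := by
      intro v hv
      apply hfix
      have hcop : Nat.Coprime k q := (Nat.Coprime.symm ((Nat.Prime.coprime_iff_not_dvd hq).mpr hk))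
      obtain ⟨m, -, hm⟩ := Nat.exists_mul_mod_eq_one_of_coprime hcop hq.one_lt
      have h3 : ∀ n : ℕ, ((T ^ k) ^ n) v = v := by
        intro n
        induction n with
        | zero => simp
        | succ n ih => rw [pow_succ, Module.End.mul_apply, hv, ih]
      have h4 := h3 m
      rw [← pow_mul] at h4
      have h5 : T ^ (k * m) = T := by
        conv_lhs => rw [← Nat.div_add_mod (k * m) q, hm, pow_add, pow_mul, hTq, one_pow, one_mul,
          pow_one]
      rw [h5] at h4
      exact h4
    have hTk0 : aeval (T ^ k) (cyclotomic q (ZMod p)) = 0 :=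
      aeval_cyclotomic_eq_zero (T ^ k) hTk hfixk
    have hfin : Module.Finite (ZMod p) (AdjoinRoot (cyclotomic q (ZMod p))) :=
      (cyclotomic.monic q (ZMod p)).finite_adjoinRoot
    have hK : Finite (AdjoinRoot (cyclotomic q (ZMod p))) := Module.finite_of_finite (ZMod p)
    have hc1 := Module.natCard_eq_pow_finrank (K := AdjoinRoot (cyclotomic q (ZMod p)))
      (V := Tw T hT)
    have hc2 := Module.natCard_eq_pow_finrank (K := AdjoinRoot (cyclotomic q (ZMod p)))
      (V := Tw (T ^ k) hTk0)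
    have hcard : Nat.card (Tw T hT) = Nat.card (Tw (T ^ k) hTk0) := rfl
    have hKc : 1 < Nat.card (AdjoinRoot (cyclotomic q (ZMod p))) := Finite.one_lt_card
    have hrank : Module.finrank (AdjoinRoot (cyclotomic q (ZMod p))) (Tw T hT)
        = Module.finrank (AdjoinRoot (cyclotomic q (ZMod p))) (Tw (T ^ k) hTk0) := by
      rw [hc1, hc2] at hcard
      exact Nat.pow_right_injective hKc hcard
    obtain ⟨e⟩ := FiniteDimensional.nonempty_linearEquiv_of_finrank_eq hrank
    refine ⟨e.toAddEquiv, ?_⟩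
    intro u
    have h3 := e.map_smul (AdjoinRoot.root (cyclotomic q (ZMod p))) (u : Tw T hT)
    rw [root_smul (T ^ k) hTk0 (e u), root_smul T hT u] at h3
    exact h3

end lin

section grp

variable {p q : ℕ} [Fact p.Prime] [Fact q.Prime] {A : Type*} [CommGroup A]

/-- an additive automorphism of a `ZMod p`-module as a linear equivalence -/
def zmodEquiv {V : Type*} [AddCommGroup V] [Module (ZMod p) V] (α : V ≃+ V) : V ≃ₗ[ZMod p] V :=
  { α with map_smul' := fun c x => ZMod.map_smul α.toAddMonoidHom c x }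

theorem zmodEquiv_apply {V : Type*} [AddCommGroup V] [Module (ZMod p) V] (α : V ≃+ V) (x : V) :
    zmodEquiv (p := p) α x = α x := rfl

/-- multiplicative form of `fwd_lin` -/
theorem fwd_grp [Finite A] [Nontrivial A] (hpq : p ≠ q)
    (hexp : ∀ a : A, a ^ p = 1) (τ : MulAut A) (hτq : τ ^ q = 1) (hfix : ∀ a, τ a = a → a = 1)
    (h1 : ∀ k : ℕ, ¬ q ∣ k → ∃ α : MulAut A, ∀ a, α (τ a) = (τ ^ k) (α a))
    (h2 : ∀ a b : A, a ≠ 1 → b ≠ 1 →
      ∃ (α : MulAut A) (k : ℕ), (∀ c, α (τ c) = (τ ^ k) (α c)) ∧ α a = b) :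
    orderOf (p : ZMod q) = q - 1 := by
  obtain ⟨_inst⟩ : Nonempty (Module (ZMod p) (Additive A)) :=
    ⟨AddCommGroup.zmodModule (n := p) (fun x => by
      show Additive.ofMul (x.toMul ^ p) = Additive.ofMul 1
      rw [hexp])⟩
  obtain ⟨T, hT1⟩ : ∃ T : Module.End (ZMod p) (Additive A),
      ∀ x : Additive A, T x = Additive.ofMul (τ x.toMul) :=
    ⟨(MonoidHom.toAdditive τ.toMonoidHom).toZModLinearMap p, fun x => rfl⟩
  have hT : ∀ (n : ℕ) (x : Additive A), (T ^ n) x = Additive.ofMul ((τ ^ n) x.toMul) := by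
    intro n
    induction n with
    | zero => intro x; rfl
    | succ n ih =>
      intro x
      rw [pow_succ, Module.End.mul_apply, hT1, ih, pow_succ]
      rfl
  refine fwd_lin hpq T ?_ ?_ ?_ ?_
  · apply LinearMap.ext
    intro x
    rw [hT, hτq]
    rfl
  · intro v hv
    rw [hT1] at hv
    have h3 := hfix v.toMul (congrArg Additive.toMul hv)
    exact congrArg Additive.ofMul h3
  · intro k hk
    obtain ⟨α, hα⟩ := h1 k hk
    refine ⟨zmodEquiv (MulEquiv.toAdditive α), ?_⟩
    intro u
    rw [hT, hT1]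
    exact congrArg Additive.ofMul (hα u.toMul)
  · intro v w hv hw
    obtain ⟨α, k, hα, hvw⟩ := h2 v.toMul w.toMul
      (fun h => hv (congrArg Additive.ofMul h)) (fun h => hw (congrArg Additive.ofMul h))
    refine ⟨zmodEquiv (MulEquiv.toAdditive α), k, ?_, ?_⟩
    · intro u
      rw [hT, hT1]
      exact congrArg Additive.ofMul (hα u.toMul)
    · exact congrArg Additive.ofMul hvw

/-- multiplicative form of `bwd_lin` -/
theorem bwd_grp [Finite A] (hpq : p ≠ q) (hord : orderOf (p : ZMod q) = q - 1)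
    (hexp : ∀ a : A, a ^ p = 1) (τ : MulAut A) (hτq : τ ^ q = 1) (hfix : ∀ a, τ a = a → a = 1) :
    (∀ a b : A, a ≠ 1 → b ≠ 1 → ∃ α : MulAut A, (∀ c, α (τ c) = τ (α c)) ∧ α a = b) ∧
    (∀ k : ℕ, ¬ q ∣ k → ∃ α : MulAut A, ∀ c, α (τ c) = (τ ^ k) (α c)) := by
  obtain ⟨_inst⟩ : Nonempty (Module (ZMod p) (Additive A)) :=
    ⟨AddCommGroup.zmodModule (n := p) (fun x => by
      show Additive.ofMul (x.toMul ^ p) = Additive.ofMul 1
      rw [hexp])⟩
  obtain ⟨T, hT1⟩ : ∃ T : Module.End (ZMod p) (Additive A),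
      ∀ x : Additive A, T x = Additive.ofMul (τ x.toMul) :=
    ⟨(MonoidHom.toAdditive τ.toMonoidHom).toZModLinearMap p, fun x => rfl⟩
  have hT : ∀ (n : ℕ) (x : Additive A), (T ^ n) x = Additive.ofMul ((τ ^ n) x.toMul) := by
    intro n
    induction n with
    | zero => intro x; rfl
    | succ n ih =>
      intro x
      rw [pow_succ, Module.End.mul_apply, hT1, ih, pow_succ]
      rfl
  have hTq : T ^ q = 1 := by
    apply LinearMap.ext
    intro x
    rw [hT, hτq]
    rfl
  have hTfix : ∀ v, T v = v → v = 0 := by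
    intro v hv
    rw [hT1] at hv
    have h3 := hfix v.toMul (congrArg Additive.toMul hv)
    exact congrArg Additive.ofMul h3
  obtain ⟨hA, hB⟩ := bwd_lin hpq hord T hTq hTfix
  constructor
  · intro a b ha hb
    obtain ⟨α, hα, hab⟩ := hA (Additive.ofMul a) (Additive.ofMul b)
      (fun h => ha (congrArg Additive.toMul h)) (fun h => hb (congrArg Additive.toMul h))
    refine ⟨MulEquiv.toAdditive.symm α, ?_, ?_⟩
    · intro c
      have h3 := hα (Additive.ofMul c)
      rw [hT1, hT1] at h3
      exact congrArg Additive.toMul h3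
    · exact congrArg Additive.toMul hab
  · intro k hk
    obtain ⟨α, hα⟩ := hB k hk
    refine ⟨MulEquiv.toAdditive.symm α, ?_⟩
    intro c
    have h3 := hα (Additive.ofMul c)
    rw [hT, hT1] at h3
    exact congrArg Additive.toMul h3

end grp

end Cfsg.Agent.Lib.Helper68.AutOrbit
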