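import Mathlib
import Cfsg.Agent.Lib.Helper68.AutOrbitLin

/-!
# Group-theoretic part of the Laffey–MacHale three-orbit theorem

A group `G = P ⋊ ⟨x⟩` with `P` a normal elementary abelian `p`-subgroup and `x` of prime
order `q` acting fixed-point-freely.
-/

set_option autoImplicit false

namespace Cfsg.Agent.Lib.Helper68.AutOrbit

section ext

variable {G : Type*} [Group G]

/-- Extending an automorphism of a normal subgroup `P` with complement `⟨x⟩` which is
compatible with `x ↦ x ^ k`. -/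
theorem exists_aut_ext [Finite G] (P : Subgroup G) [P.Normal] (x : G)
    (hcompl : P.IsComplement' (Subgroup.zpowers x)) (φ : MulAut P) (k : ℕ)
    (hk : (orderOf x).Coprime k)
    (hφ : ∀ u : P, (φ (MulAut.conjNormal x u) : G) = x ^ k * φ u * (x ^ k)⁻¹) :
    ∃ Φ : MulAut G, (∀ u : P, Φ u = φ u) ∧ Φ x = x ^ k := by
  have hpow : ∀ (i : ℕ) (u : P),
      (φ (MulAut.conjNormal (x ^ i) u) : G) = (x ^ k) ^ i * φ u * ((x ^ k) ^ i)⁻¹ := by
    intro i
    induction i with
    | zero => intro u; simp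
    | succ i ih =>
      intro u
      have h1 : MulAut.conjNormal (x ^ (i + 1)) u
          = MulAut.conjNormal x (MulAut.conjNormal (x ^ i) u) := by
        rw [pow_succ', map_mul]; rfl
      rw [h1, hφ, ih, pow_succ']
      group
  let f₁ : P →* G := P.subtype.comp φ.toMonoidHom
  let f₂ : Subgroup.zpowers x →* G :=
    { toFun := fun y => (y : G) ^ k
      map_one' := by simp
      map_mul' := fun a b => by
        obtain ⟨i, hi⟩ := Subgroup.mem_zpowers_iff.mp a.2
        obtain ⟨j, hj⟩ := Subgroup.mem_zpowers_iff.mp b.2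
        have hc : Commute (a : G) (b : G) := by
          rw [← hi, ← hj]
          exact Commute.zpow_zpow_self x i j
        simp [hc.mul_pow] }
  have hcomp : ∀ y : Subgroup.zpowers x,
      f₁.comp ((((P.normalizerMonoidHom).comp (Subgroup.inclusion
        (P.normalizer_eq_top ▸ le_top))) y).toMonoidHom)
      = (MulAut.conj (f₂ y)).toMonoidHom.comp f₁ := by
    intro y
    obtain ⟨i, hi⟩ := mem_powers_iff_mem_zpowers.mpr y.2
    ext u
    have h2 := hpow i u
    simp only [MonoidHom.comp_apply, MulEquiv.coe_toMonoidHom, MulAut.conj_apply]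
    show (φ _ : G) = (y : G) ^ k * (φ u : G) * ((y : G) ^ k)⁻¹
    have hi' : x ^ i = (y : G) := hi
    rw [← hi', ← pow_mul, mul_comm i k, pow_mul, ← h2]
    have h3 : (P.normalizerMonoidHom ((Subgroup.inclusion (P.normalizer_eq_top ▸ le_top)) y)) u
        = MulAut.conjNormal (x ^ i) u := by
      apply Subtype.ext
      rw [MulAut.conjNormal_apply, hi']
      rfl
    exact congrArg (fun w : P => (φ w : G)) h3
  let Ψ := SemidirectProduct.lift f₁ f₂ hcomp
  let Φ₀ : G →* G := Ψ.comp (SemidirectProduct.mulEquivSubgroup hcompl).symm.toMonoidHom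
  have hΦ₀ : ∀ (u : P) (y : Subgroup.zpowers x), Φ₀ ((u : G) * (y : G)) = (φ u : G) * (y : G) ^ k := by
    intro u y
    have h1 : (SemidirectProduct.mulEquivSubgroup hcompl).symm ((u : G) * (y : G)) = ⟨u, y⟩ := by
      rw [MulEquiv.symm_apply_eq, SemidirectProduct.mulEquivSubgroup_apply]
    show Ψ ((SemidirectProduct.mulEquivSubgroup hcompl).symm ((u : G) * (y : G))) = _
    rw [h1]
    rfl
  have hinj : Function.Injective Φ₀ := by
    rw [injective_iff_map_eq_one]
    intro g hg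
    obtain ⟨⟨u, y⟩, rfl⟩ := (SemidirectProduct.mulEquivSubgroup hcompl).surjective g
    rw [SemidirectProduct.mulEquivSubgroup_apply] at hg ⊢
    rw [hΦ₀] at hg
    have h1 : (y : G) ^ k = ((φ u : P) : G)⁻¹ := eq_inv_of_mul_eq_one_right hg
    have h2 : (y : G) ^ k ∈ P := by
      rw [h1]
      exact P.inv_mem (φ u).2
    have h3 : (y : G) ^ k ∈ Subgroup.zpowers x := (Subgroup.zpowers x).pow_mem y.2 k
    have h4 : (y : G) ^ k = 1 := by
      have := hcompl.disjoint.le_bot (show (y : G) ^ k ∈ P ⊓ Subgroup.zpowers x from ⟨h2, h3⟩)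
      exact this
    have h5 : orderOf (y : G) ∣ orderOf x := orderOf_dvd_of_mem_zpowers y.2
    have h6 : orderOf (y : G) ∣ k := orderOf_dvd_of_pow_eq_one h4
    have h7 : orderOf (y : G) = 1 := Nat.eq_one_of_dvd_coprimes hk h5 h6
    have h8 : (y : G) = 1 := orderOf_eq_one_iff.mp h7
    rw [h8, one_pow, mul_one] at hg
    have h9 : φ u = 1 := Subtype.ext hg
    have h10 : u = 1 := by
      rw [← φ.map_one] at h9
      exact φ.injective h9
    rw [h8, h10]
    simp
  refine ⟨MulEquiv.ofBijective Φ₀ ⟨hinj, Finite.injective_iff_surjective.mp hinj⟩, ?_, ?_⟩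
  · intro u
    have := hΦ₀ u 1
    rw [OneMemClass.coe_one, mul_one, one_pow, mul_one] at this
    exact this
  · have := hΦ₀ 1 ⟨x, Subgroup.mem_zpowers x⟩
    rw [OneMemClass.coe_one, one_mul, map_one, OneMemClass.coe_one, one_mul] at this
    exact this

end ext

/-- `G = P ⋊ ⟨x⟩` with `P` the elementary abelian subgroup of all elements of order dividing
`p`, and `x` of order `q` acting fixed-point-freely. -/
structure Frob (G : Type*) [Group G] (P : Subgroup G) (x : G) (p q : ℕ) : Prop where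
  normal : P.Normal
  comm : ∀ a ∈ P, ∀ b ∈ P, a * b = b * a
  mem_iff : ∀ g : G, g ∈ P ↔ g ^ p = 1
  hx : orderOf x = q
  compl : P.IsComplement' (Subgroup.zpowers x)
  fpf : ∀ i : ℕ, ¬ q ∣ i → ∀ u ∈ P, x ^ i * u = u * x ^ i → u = 1

namespace Frob

variable {G : Type*} [Group G] {P : Subgroup G} {x : G} {p q : ℕ}

theorem gen [Finite G] (h : Frob G P x p q) (g : G) : ∃ u ∈ P, ∃ i : ℕ, g = u * x ^ i := by
  obtain ⟨⟨u, y⟩, rfl⟩ := h.compl.2 g
  obtain ⟨i, hi⟩ := mem_powers_iff_mem_zpowers.mpr y.2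
  have hi' : x ^ i = (y : G) := hi
  exact ⟨u, u.2, i, by rw [hi']⟩

theorem dvd_of_pow_mem (h : Frob G P x p q) (i : ℕ) (hi : x ^ i ∈ P) : q ∣ i := by
  by_contra hq
  have h1 := h.fpf i hq (x ^ i) hi rfl
  rw [← h.hx] at hq
  exact hq (orderOf_dvd_of_pow_eq_one h1)

theorem conj_eq [Finite G] (h : Frob G P x p q) (i : ℕ) (hi : ¬ q ∣ i) (u₀ : G) (hu₀ : u₀ ∈ P) :
    ∃ u ∈ P, u * x ^ i * u⁻¹ = u₀ * x ^ i := by
  have hn := h.normal
  let f : P → P := fun u => ⟨(u : G) * (x ^ i * (u : G)⁻¹ * (x ^ i)⁻¹),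
    P.mul_mem u.2 (hn.conj_mem _ (P.inv_mem u.2) _)⟩
  have hinj : Function.Injective f := by
    intro u w huw
    have h1 : (u : G) * (x ^ i * (u : G)⁻¹ * (x ^ i)⁻¹) = (w : G) * (x ^ i * (w : G)⁻¹ * (x ^ i)⁻¹) :=
      congrArg Subtype.val huw
    have h2 : x ^ i * ((w : G)⁻¹ * (u : G)) = ((w : G)⁻¹ * (u : G)) * x ^ i := by
      have h3 : (w : G)⁻¹ * (u : G) * x ^ i * (u : G)⁻¹ = x ^ i * (w : G)⁻¹ := by
        have h4 := congrArg (fun z => (w : G)⁻¹ * z * x ^ i) h1
        simp only [mul_assoc, inv_mul_cancel_left, inv_mul_cancel, mul_one] at h4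
        simpa [mul_assoc] using h4
      calc x ^ i * ((w : G)⁻¹ * (u : G)) = (x ^ i * (w : G)⁻¹) * (u : G) := by rw [mul_assoc]
        _ = ((w : G)⁻¹ * (u : G) * x ^ i * (u : G)⁻¹) * (u : G) := by rw [h3]
        _ = _ := by group
    have h5 := h.fpf i hi _ (P.mul_mem (P.inv_mem w.2) u.2) h2
    apply Subtype.ext
    exact (inv_mul_eq_one.mp h5).symm
  obtain ⟨u, hu⟩ := (Finite.injective_iff_surjective.mp hinj) ⟨u₀, hu₀⟩
  refine ⟨u, u.2, ?_⟩
  have h1 : (u : G) * (x ^ i * (u : G)⁻¹ * (x ^ i)⁻¹) = u₀ := congrArg Subtype.val hu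
  rw [← h1]
  group

/-- restriction of an automorphism of `G` to `P` -/
def restr (h : Frob G P x p q) (Φ : MulAut G) : MulAut P where
  toFun u := ⟨Φ u, (h.mem_iff _).mpr (by rw [← map_pow, (h.mem_iff _).mp u.2, map_one])⟩
  invFun u := ⟨Φ.symm u, (h.mem_iff _).mpr (by rw [← map_pow, (h.mem_iff _).mp u.2, map_one])⟩
  left_inv u := Subtype.ext (Φ.symm_apply_apply u)
  right_inv u := Subtype.ext (Φ.apply_symm_apply u)
  map_mul' a b := Subtype.ext (map_mul Φ (a : G) (b : G))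

theorem restr_apply (h : Frob G P x p q) (Φ : MulAut G) (u : P) : (h.restr Φ u : G) = Φ u := rfl

theorem tau_pow (h : Frob G P x p q) (k : ℕ) (u : P) :
    (((@MulAut.conjNormal G _ P h.normal x) ^ k) u : G) = x ^ k * u * (x ^ k)⁻¹ := by
  have hn := h.normal
  rw [← map_pow, MulAut.conjNormal_apply]

theorem pow_q (h : Frob G P x p q) : x ^ q = 1 := by
  rw [← h.hx]
  exact pow_orderOf_eq_one x

theorem orderOf_of_mem [Fact p.Prime] (h : Frob G P x p q) (a : G) (ha : a ∈ P) (ha1 : a ≠ 1) :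
    orderOf a = p :=
  orderOf_eq_prime ((h.mem_iff a).mp ha) ha1

/-- forward direction: transitivity of `Aut G` on elements of equal order forces `p` to be a
primitive root modulo `q`. -/
theorem primitive_root [Finite G] [Fact p.Prime] [Fact q.Prime] (h : Frob G P x p q) (hpq : p ≠ q)
    (hP : P ≠ ⊥)
    (htrans : ∀ g g' : G, orderOf g = orderOf g' → ∃ Φ : MulAut G, Φ g = g') :
    orderOf (p : ZMod q) = q - 1 := by
  have hp : p.Prime := Fact.out
  have hq : q.Prime := Fact.out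
  have hn := h.normal
  let _ : CommGroup P :=
    { (inferInstance : Group P) with mul_comm := fun a b => Subtype.ext (h.comm a a.2 b b.2) }
  have hnt : Nontrivial P := (Subgroup.nontrivial_iff_ne_bot P).mpr hP
  have hq1 : ¬ q ∣ 1 := fun hd => hq.one_lt.ne' (Nat.dvd_one.mp hd)
  refine fwd_grp (A := P) hpq ?_ (MulAut.conjNormal x) ?_ ?_ ?_ ?_
  · intro a
    exact Subtype.ext ((h.mem_iff a).mp a.2)
  · rw [← map_pow, h.pow_q, map_one]
  · intro a ha
    have h1 : x * (a : G) * x⁻¹ = a := by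
      rw [← MulAut.conjNormal_apply, ha]
    have h2 : x ^ 1 * (a : G) = (a : G) * x ^ 1 := by
      rw [pow_one]
      exact mul_inv_eq_iff_eq_mul.mp h1
    exact Subtype.ext (h.fpf 1 hq1 a a.2 h2)
  · intro k hk
    have hxk : orderOf (x ^ k) = orderOf x := by
      rw [h.hx]
      apply orderOf_eq_prime
      · rw [← pow_mul, mul_comm, pow_mul, h.pow_q, one_pow]
      · intro h1
        rw [← h.hx] at hk
        exact hk (orderOf_dvd_of_pow_eq_one h1)
    obtain ⟨Φ, hΦ⟩ := htrans x (x ^ k) hxk.symm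
    refine ⟨h.restr Φ, ?_⟩
    intro a
    apply Subtype.ext
    rw [h.tau_pow, h.restr_apply, h.restr_apply, MulAut.conjNormal_apply, map_mul, map_mul,
      map_inv, hΦ]
  · intro a b ha hb
    have ha1 : (a : G) ≠ 1 := fun h1 => ha (Subtype.ext h1)
    have hb1 : (b : G) ≠ 1 := fun h1 => hb (Subtype.ext h1)
    obtain ⟨Φ, hΦ⟩ := htrans (a : G) (b : G)
      ((h.orderOf_of_mem a a.2 ha1).trans (h.orderOf_of_mem b b.2 hb1).symm)
    obtain ⟨u₀, hu₀, i, hi⟩ := h.gen (Φ x)
    have hqi : ¬ q ∣ i := by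
      intro hd
      have h1 : x ^ i = 1 := by
        rw [← h.hx] at hd
        exact orderOf_dvd_iff_pow_eq_one.mp hd
      rw [h1, mul_one] at hi
      have h2 : (Φ x) ^ p = 1 := by
        rw [hi]
        exact (h.mem_iff u₀).mp hu₀
      rw [← map_pow] at h2
      have h3 : x ^ p = 1 := by
        rw [← Φ.map_one] at h2
        exact Φ.injective h2
      have h4 : q ∣ p := by
        rw [← h.hx]
        exact orderOf_dvd_of_pow_eq_one h3
      exact hpq ((Nat.prime_dvd_prime_iff_eq hq hp).mp h4).symm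
    obtain ⟨u, hu, hconj⟩ := h.conj_eq i hqi u₀ hu₀
    have hΦ' : ∀ z : G, ((MulAut.conj u)⁻¹ * Φ) z = u⁻¹ * Φ z * u := fun z => by
      rw [MulAut.mul_apply, MulAut.conj_inv_apply]
    have hx' : ((MulAut.conj u)⁻¹ * Φ) x = x ^ i := by
      rw [hΦ', hi, ← hconj]
      group
    refine ⟨h.restr ((MulAut.conj u)⁻¹ * Φ), i, ?_, ?_⟩
    · intro c
      apply Subtype.ext
      rw [h.tau_pow, h.restr_apply, h.restr_apply, MulAut.conjNormal_apply, map_mul, map_mul,
        map_inv, hx']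
    · apply Subtype.ext
      rw [h.restr_apply, hΦ', hΦ, mul_assoc, h.comm b b.2 u hu, inv_mul_cancel_left]

/-- the data provided by `bwd_grp` in the Frobenius setting -/
theorem exists_auts [Finite G] [Fact p.Prime] [Fact q.Prime] (h : Frob G P x p q) (hpq : p ≠ q)
    (hord : orderOf (p : ZMod q) = q - 1) :
    (∀ a ∈ P, ∀ b ∈ P, a ≠ 1 → b ≠ 1 → ∃ Φ : MulAut G, Φ a = b) ∧
    (∀ k : ℕ, ¬ q ∣ k → ∃ Φ : MulAut G, Φ x = x ^ k) := by
  have hp : p.Prime := Fact.out
  have hq : q.Prime := Fact.out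
  have hn := h.normal
  let _ : CommGroup P :=
    { (inferInstance : Group P) with mul_comm := fun a b => Subtype.ext (h.comm a a.2 b b.2) }
  have hq1 : ¬ q ∣ 1 := fun hd => hq.one_lt.ne' (Nat.dvd_one.mp hd)
  obtain ⟨hA, hB⟩ := bwd_grp (A := P) hpq hord (fun a => Subtype.ext ((h.mem_iff a).mp a.2))
    (MulAut.conjNormal x) (by rw [← map_pow, h.pow_q, map_one]) (by
      intro a ha
      have h1 : x * (a : G) * x⁻¹ = a := by
        rw [← MulAut.conjNormal_apply, ha]
      have h2 : x ^ 1 * (a : G) = (a : G) * x ^ 1 := by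
        rw [pow_one]
        exact mul_inv_eq_iff_eq_mul.mp h1
      exact Subtype.ext (h.fpf 1 hq1 a a.2 h2))
  constructor
  · intro a ha b hb ha1 hb1
    obtain ⟨α, hα, hab⟩ := hA ⟨a, ha⟩ ⟨b, hb⟩ (fun h1 => ha1 (congrArg Subtype.val h1))
      (fun h1 => hb1 (congrArg Subtype.val h1))
    obtain ⟨Φ, hΦ, -⟩ := exists_aut_ext P x h.compl α 1 (Nat.coprime_one_right _) (by
      intro u
      rw [hα, MulAut.conjNormal_apply, pow_one])
    refine ⟨Φ, ?_⟩
    have h1 := hΦ ⟨a, ha⟩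
    rw [hab] at h1
    exact h1
  · intro k hk
    obtain ⟨α, hα⟩ := hB k hk
    have hcop : (orderOf x).Coprime k := by
      rw [h.hx]
      exact (Nat.Prime.coprime_iff_not_dvd hq).mpr hk
    obtain ⟨Φ, -, hΦ⟩ := exists_aut_ext P x h.compl α k hcop (by
      intro u
      rw [hα, h.tau_pow])
    exact ⟨Φ, hΦ⟩

theorem trans_compl [Finite G] [Fact p.Prime] [Fact q.Prime] (h : Frob G P x p q) (hpq : p ≠ q)
    (hord : orderOf (p : ZMod q) = q - 1) (g g' : G) (hg : g ∉ P) (hg' : g' ∉ P) :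
    ∃ Φ : MulAut G, Φ g = g' := by
  have hq : q.Prime := Fact.out
  obtain ⟨-, hB⟩ := h.exists_auts hpq hord
  obtain ⟨u₀, hu₀, i, rfl⟩ := h.gen g
  obtain ⟨u₀', hu₀', j, rfl⟩ := h.gen g'
  have hqi : ¬ q ∣ i := by
    intro hd
    apply hg
    rw [← h.hx] at hd
    rw [orderOf_dvd_iff_pow_eq_one.mp hd, mul_one]
    exact hu₀
  have hqj : ¬ q ∣ j := by
    intro hd
    apply hg'
    rw [← h.hx] at hd
    rw [orderOf_dvd_iff_pow_eq_one.mp hd, mul_one]
    exact hu₀'
  obtain ⟨u, hu, hconj⟩ := h.conj_eq i hqi u₀ hu₀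
  obtain ⟨u', hu', hconj'⟩ := h.conj_eq j hqj u₀' hu₀'
  have hcop : Nat.Coprime i q := (Nat.Coprime.symm ((Nat.Prime.coprime_iff_not_dvd hq).mpr hqi))
  obtain ⟨m, -, hm⟩ := Nat.exists_mul_mod_eq_one_of_coprime hcop hq.one_lt
  have hqk : ¬ q ∣ m * j := by
    intro hd
    rcases (Nat.Prime.dvd_mul hq).mp hd with h1 | h1
    · have h2 : i * m % q = 0 := Nat.mod_eq_zero_of_dvd (Dvd.dvd.mul_left h1 i)
      omega
    · exact hqj h1
  obtain ⟨Φ, hΦ⟩ := hB (m * j) hqk
  have hpow : Φ (x ^ i) = x ^ j := by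
    have h1 : x ^ (i * m) = x := by
      conv_lhs => rw [← Nat.div_add_mod (i * m) q, hm, pow_add, pow_mul, h.pow_q, one_pow, one_mul,
        pow_one]
    rw [map_pow, hΦ, ← pow_mul, show m * j * i = (i * m) * j by ring, pow_mul, h1]
  refine ⟨MulAut.conj u' * Φ * (MulAut.conj u)⁻¹, ?_⟩
  rw [MulAut.mul_apply, MulAut.mul_apply, MulAut.conj_inv_apply, ← hconj]
  have h2 : u⁻¹ * (u * x ^ i * u⁻¹) * u = x ^ i := by group
  rw [h2, hpow, MulAut.conj_apply, hconj']

end Frob

end Cfsg.Agent.Lib.Helper68.AutOrbit
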