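import Mathlib
import Cfsg.Agent.Lib.Helper69.Kulakoff

set_option autoImplicit false

/-!
Hall-type reduction formula modulo `p ^ 2` for the number of subgroups of order `p ^ k` of a
noncyclic `p`-group (all primes `p`), extracted from the proof of Kulakoff's theorem in
`Cfsg.Agent.Lib.Helper69.Kulakoff`.
-/

namespace Cfsg.Agent.Lib.Helper68.Kul

open Subgroup Cfsg.Agent.Lib.Helper69

universe u

theorem bot_ne_top_of_not_cyclic {G : Type*} [Group G] (hnc : ¬ IsCyclic G) :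
    (⊥ : Subgroup G) ≠ ⊤ := by
  intro h
  apply hnc
  haveI : Subsingleton G := by
    rw [← Subgroup.subsingleton_iff]
    exact subsingleton_of_bot_eq_top h
  exact isCyclic_of_subsingleton

theorem card_maxOver_bot_cast (p : ℕ) [Fact p.Prime] {G : Type*} [Group G] [Finite G]
    (hPG : IsPGroup p G) (hnc : ¬ IsCyclic G) :
    (Nat.card (MaxOver p (⊥ : Subgroup G)) : ZMod (p ^ 2)) = 1 + p := by
  rcases card_maxOver_cases p hPG ⊥ (bot_ne_top_of_not_cyclic hnc) with h | ⟨_, h⟩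
  · have := two_le_card_maxOver_bot p hPG hnc
    omega
  · exact h

/-- top case: the subgroups of index `p`. -/
theorem kul_top (p : ℕ) [Fact p.Prime] (n : ℕ) (G : Type u) [Group G] [Finite G]
    (hG : Nat.card G = p ^ n) (hnc : ¬ IsCyclic G) (k : ℕ) (hk : k + 1 = n) :
    (Nat.card (OrdSub G (p ^ k)) : ZMod (p ^ 2)) = 1 + p := by
  have hp : p.Prime := Fact.out
  have hPG : IsPGroup p G := IsPGroup.of_card hG
  have e : OrdSub G (p ^ k) ≃ MaxOver p (⊥ : Subgroup G) :=
    { toFun := fun H => ⟨H.1, by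
        have h1 := Subgroup.card_mul_index H.1
        rw [H.2, hG, ← hk, pow_succ] at h1
        exact Nat.eq_of_mul_eq_mul_left (pow_pos hp.pos k) h1, bot_le⟩
      invFun := fun M => ⟨M.1, by
        rw [(card_of_index_eq_prime p n hG M.1 M.2.1).1]
        congr 1; omega⟩
      left_inv := fun _ => rfl
      right_inv := fun _ => rfl }
  rw [Nat.card_congr e]
  exact card_maxOver_bot_cast p hPG hnc

/-- **Reduction formula**: for a noncyclic group of order `p ^ n` and `k + 2 ≤ n`, the number of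
subgroups of order `p ^ k` is congruent modulo `p ^ 2` to the sum over the maximal subgroups `M`
of the number of subgroups of order `p ^ k` of `M`, minus `p`. -/
theorem kul_reduction (p : ℕ) [Fact p.Prime] (n : ℕ) (G : Type u) [Group G] [Finite G]
    (hG : Nat.card G = p ^ n) (hnc : ¬ IsCyclic G) (k : ℕ) (hkn2 : k + 2 ≤ n)
    [Fintype (MaxOver p (⊥ : Subgroup G))] :
    (Nat.card (OrdSub G (p ^ k)) : ZMod (p ^ 2)) =
      ∑ M : MaxOver p (⊥ : Subgroup G), (Nat.card (OrdSub M.1 (p ^ k)) : ZMod (p ^ 2)) - p := by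
  classical
  have hp : p.Prime := Fact.out
  have hPG : IsPGroup p G := IsPGroup.of_card hG
  have hsq := sq_cast_zmod p
  have hμ : (Nat.card (MaxOver p (⊥ : Subgroup G)) : ZMod (p ^ 2)) = 1 + p :=
    card_maxOver_bot_cast p hPG hnc
  haveI : Fintype (OrdSub G (p ^ k)) := Fintype.ofFinite _
  let sf : Subgroup G → ℕ := fun H => Nat.card (OrdSub H (p ^ k))
  let mC : OrdSub G (p ^ k) → ℕ := fun C => Nat.card (MaxOver p C.1)
  have hE1 := sum_card_comm
    (fun (C : OrdSub G (p ^ k)) (M : MaxOver p (⊥ : Subgroup G)) => C.1 ≤ M.1)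
  have hE2 := sum_card_comm
    (fun (C : OrdSub G (p ^ k))
      (MM : MaxOver p (⊥ : Subgroup G) × MaxOver p (⊥ : Subgroup G)) =>
        C.1 ≤ MM.1.1 ⊓ MM.2.1)
  have hC1 : ∀ C : OrdSub G (p ^ k),
      Nat.card {M : MaxOver p (⊥ : Subgroup G) // C.1 ≤ M.1} = mC C := by
    intro C
    exact Nat.card_congr ⟨fun M => ⟨M.1.1, M.1.2.1, M.2⟩,
      fun M => ⟨⟨M.1, M.2.1, bot_le⟩, M.2.2⟩, fun _ => rfl, fun _ => rfl⟩
  have hC2 : ∀ C : OrdSub G (p ^ k),
      Nat.card {MM : MaxOver p (⊥ : Subgroup G) × MaxOver p (⊥ : Subgroup G) //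
        C.1 ≤ MM.1.1 ⊓ MM.2.1} = mC C * mC C := by
    intro C
    rw [← Nat.card_prod]
    exact Nat.card_congr
      ⟨fun MM => (⟨MM.1.1.1, MM.1.1.2.1, (le_inf_iff.mp MM.2).1⟩,
          ⟨MM.1.2.1, MM.1.2.2.1, (le_inf_iff.mp MM.2).2⟩),
        fun x => ⟨(⟨x.1.1, x.1.2.1, bot_le⟩, ⟨x.2.1, x.2.2.1, bot_le⟩),
          le_inf x.1.2.2 x.2.2.2⟩, fun _ => rfl, fun _ => rfl⟩
  have hCt : ∀ C : OrdSub G (p ^ k), C.1 ≠ ⊤ := by
    intro C h
    have h1 : Nat.card C.1 = Nat.card G := by rw [h, Subgroup.card_top]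
    rw [C.2, hG] at h1
    have := Nat.pow_right_injective hp.two_le h1
    omega
  have hC3 : ∀ C : OrdSub G (p ^ k),
      ((mC C : ZMod (p ^ 2))) * (2 - (mC C : ZMod (p ^ 2))) = 1 := by
    intro C
    rcases card_maxOver_cases p hPG C.1 (hCt C) with h | ⟨_, h⟩
    · have : mC C = 1 := h
      rw [this]; push_cast; ring
    · have : (mC C : ZMod (p ^ 2)) = 1 + p := h
      rw [this]
      linear_combination (-1 : ZMod (p ^ 2)) * hsq
  have hM : ∀ M : MaxOver p (⊥ : Subgroup G),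
      Nat.card {C : OrdSub G (p ^ k) // C.1 ≤ M.1} = sf M.1 :=
    fun M => (Nat.card_congr (ordSubEquiv M.1 (p ^ k))).symm
  have hMM : ∀ MM : MaxOver p (⊥ : Subgroup G) × MaxOver p (⊥ : Subgroup G),
      Nat.card {C : OrdSub G (p ^ k) // C.1 ≤ MM.1.1 ⊓ MM.2.1} = sf (MM.1.1 ⊓ MM.2.1) :=
    fun MM => (Nat.card_congr (ordSubEquiv _ (p ^ k))).symm
  simp only [hC1, hM] at hE1
  simp only [hC2, hMM] at hE2
  -- E5
  have hD : ∀ M1 : MaxOver p (⊥ : Subgroup G),
      ∑ M2 ∈ Finset.univ.erase M1, (sf (M1.1 ⊓ M2.1) : ZMod (p ^ 2)) = p := by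
    intro M1
    have hsf1 : ∀ M2 ∈ Finset.univ.erase M1,
        sf (M1.1 ⊓ M2.1) = p * (sf (M1.1 ⊓ M2.1) / p) + 1 := by
      intro M2 hM2
      have hne : M1.1 ≠ M2.1 := by
        intro h
        exact (Finset.mem_erase.mp hM2).1 (Subtype.ext h.symm)
      have hcH := (card_inf_of_ne p n hG M1.1 M2.1 M1.2.1 M2.2.1 hne).1
      have h1 : sf (M1.1 ⊓ M2.1) ≡ 1 [MOD p] :=
        Cfsg.Agent.Lib.Helper66.card_subgroups_pow_modEq_one p k
          (by rw [hcH]; exact pow_dvd_pow p (by omega))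
      have h2 : sf (M1.1 ⊓ M2.1) % p = 1 := by
        have := h1
        unfold Nat.ModEq at this
        rw [this]
        exact Nat.mod_eq_of_lt hp.one_lt
      have h3 := Nat.div_add_mod (sf (M1.1 ⊓ M2.1)) p
      omega
    have hdvd : p ∣ ∑ M2 ∈ Finset.univ.erase M1, (sf (M1.1 ⊓ M2.1) / p) := by
      rw [Finset.sum_comp (fun H : Subgroup G => sf H / p)
        (fun M2 : MaxOver p (⊥ : Subgroup G) => M1.1 ⊓ M2.1)]
      apply Finset.dvd_sum
      intro b hb
      obtain ⟨M20, hM20, rfl⟩ := Finset.mem_image.mp hb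
      have hne0 : M1.1 ≠ M20.1 := by
        intro h
        exact (Finset.mem_erase.mp hM20).1 (Subtype.ext h.symm)
      have hcb := (card_inf_of_ne p n hG M1.1 M20.1 M1.2.1 M20.2.1 hne0).1
      rw [smul_eq_mul]
      apply Dvd.dvd.mul_right
      -- the fibre
      have hfil : (Finset.univ.erase M1).filter
          (fun a : MaxOver p (⊥ : Subgroup G) => M1.1 ⊓ a.1 = M1.1 ⊓ M20.1) =
          Finset.univ.filter (fun a : MaxOver p (⊥ : Subgroup G) =>
            a ≠ M1 ∧ M1.1 ⊓ a.1 = M1.1 ⊓ M20.1) := by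
        ext a
        simp [Finset.mem_erase]
      rw [hfil, ← Fintype.card_subtype, ← Nat.card_eq_fintype_card]
      let M1b : MaxOver p (M1.1 ⊓ M20.1) := ⟨M1.1, M1.2.1, inf_le_left⟩
      have e : {a : MaxOver p (⊥ : Subgroup G) // a ≠ M1 ∧ M1.1 ⊓ a.1 = M1.1 ⊓ M20.1} ≃
          {M : MaxOver p (M1.1 ⊓ M20.1) // M ≠ M1b} :=
        { toFun := fun a => ⟨⟨a.1.1, a.1.2.1, le_of_eq_of_le a.2.2.symm inf_le_right⟩, by
            intro h
            apply a.2.1
            apply Subtype.ext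
            exact congrArg (fun z : MaxOver p (M1.1 ⊓ M20.1) => z.1) h⟩
          invFun := fun M => ⟨⟨M.1.1, M.1.2.1, bot_le⟩, by
            have hne' : M1.1 ≠ M.1.1 := by
              intro h
              apply M.2
              apply Subtype.ext
              exact h.symm
            refine ⟨?_, ?_⟩
            · intro h
              exact hne' (congrArg Subtype.val h).symm
            · symm
              apply Subgroup.eq_of_le_of_card_ge (le_inf inf_le_left M.1.2.2)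
              rw [hcb, (card_inf_of_ne p n hG M1.1 M.1.1 M1.2.1 M.1.2.1 hne').1]⟩
          left_inv := fun _ => rfl
          right_inv := fun _ => rfl }
      rw [Nat.card_congr e]
      have h3 := Nat.card_congr (Equiv.optionSubtypeNe M1b)
      rw [Finite.card_option] at h3
      have hbne : (M1.1 ⊓ M20.1 : Subgroup G) ≠ ⊤ := by
        intro h
        have h4 : Nat.card (M1.1 ⊓ M20.1 : Subgroup G) = Nat.card G := by
          rw [h, Subgroup.card_top]
        rw [hcb, hG] at h4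
        have := Nat.pow_right_injective hp.two_le h4
        omega
      have h4 := card_maxOver_modEq p hPG _ hbne
      rw [← h3] at h4
      exact Nat.modEq_zero_iff_dvd.mp (Nat.ModEq.add_right_cancel' 1 (by simpa using h4))
    obtain ⟨q, hq⟩ := hdvd
    have hcast : ∑ M2 ∈ Finset.univ.erase M1, (sf (M1.1 ⊓ M2.1) : ZMod (p ^ 2)) =
        ∑ M2 ∈ Finset.univ.erase M1,
          ((p : ZMod (p ^ 2)) * ((sf (M1.1 ⊓ M2.1) / p : ℕ) : ZMod (p ^ 2)) + 1) := by
      apply Finset.sum_congr rfl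
      intro M2 hM2
      conv_lhs => rw [hsf1 M2 hM2]
      push_cast
      ring
    rw [hcast, Finset.sum_add_distrib, ← Finset.mul_sum, ← Nat.cast_sum, hq, Finset.sum_const,
      Finset.card_erase_of_mem (Finset.mem_univ M1), Finset.card_univ]
    have hcard1 : Fintype.card (MaxOver p (⊥ : Subgroup G)) - 1 + 1 =
        Nat.card (MaxOver p (⊥ : Subgroup G)) := by
      rw [Nat.card_eq_fintype_card]
      have : 0 < Fintype.card (MaxOver p (⊥ : Subgroup G)) := Fintype.card_pos_iff.mpr ⟨M1⟩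
      omega
    have hcard2 : ((Fintype.card (MaxOver p (⊥ : Subgroup G)) - 1 : ℕ) : ZMod (p ^ 2)) = p := by
      have h5 := congrArg (Nat.cast : ℕ → ZMod (p ^ 2)) hcard1
      rw [hμ] at h5
      push_cast at h5
      linear_combination h5
    rw [nsmul_eq_mul, mul_one, hcard2]
    push_cast
    linear_combination (q : ZMod (p ^ 2)) * hsq
  have hB : ∑ MM : MaxOver p (⊥ : Subgroup G) × MaxOver p (⊥ : Subgroup G),
      (sf (MM.1.1 ⊓ MM.2.1) : ZMod (p ^ 2)) =
        ∑ M : MaxOver p (⊥ : Subgroup G), (sf M.1 : ZMod (p ^ 2)) + p := by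
    rw [Fintype.sum_prod_type]
    have h1 : ∀ M1 : MaxOver p (⊥ : Subgroup G),
        ∑ M2 : MaxOver p (⊥ : Subgroup G), (sf (M1.1 ⊓ M2.1) : ZMod (p ^ 2)) =
          (sf M1.1 : ZMod (p ^ 2)) + p := by
      intro M1
      rw [← Finset.add_sum_erase Finset.univ _ (Finset.mem_univ M1), hD M1, inf_idem]
    rw [Finset.sum_congr rfl (fun M1 _ => h1 M1), Finset.sum_add_distrib, Finset.sum_const,
      Finset.card_univ, nsmul_eq_mul, ← Nat.card_eq_fintype_card, hμ]
    linear_combination hsq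
  -- assemble
  have hX : (Nat.card (OrdSub G (p ^ k)) : ZMod (p ^ 2)) =
      ∑ _C : OrdSub G (p ^ k), (1 : ZMod (p ^ 2)) := by
    rw [Finset.sum_const, Finset.card_univ, Nat.card_eq_fintype_card, nsmul_eq_mul, mul_one]
  have h1 : ∑ C : OrdSub G (p ^ k), ((mC C : ZMod (p ^ 2))) =
      ∑ M : MaxOver p (⊥ : Subgroup G), (sf M.1 : ZMod (p ^ 2)) := by
    rw [← Nat.cast_sum, hE1, Nat.cast_sum]
  have h2 : ∑ C : OrdSub G (p ^ k), ((mC C : ZMod (p ^ 2)) * (mC C : ZMod (p ^ 2))) =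
      ∑ M : MaxOver p (⊥ : Subgroup G), (sf M.1 : ZMod (p ^ 2)) + p := by
    rw [← hB, ← Nat.cast_sum (Finset.univ : Finset (MaxOver p (⊥ : Subgroup G) ×
      MaxOver p (⊥ : Subgroup G))), ← hE2]
    push_cast
    rfl
  rw [hX, Finset.sum_congr rfl (fun C _ => (hC3 C).symm)]
  have h3 : ∑ C : OrdSub G (p ^ k), ((mC C : ZMod (p ^ 2)) * (2 - (mC C : ZMod (p ^ 2)))) =
      2 * ∑ C : OrdSub G (p ^ k), ((mC C : ZMod (p ^ 2))) -
        ∑ C : OrdSub G (p ^ k), ((mC C : ZMod (p ^ 2)) * (mC C : ZMod (p ^ 2))) := by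
    rw [Finset.mul_sum, ← Finset.sum_sub_distrib]
    apply Finset.sum_congr rfl
    intro C _
    ring
  rw [h3, h1, h2]
  ring

end Cfsg.Agent.Lib.Helper68.Kul
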