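import Mathlib
import Cfsg.Agent.Lib.Helper69.Kulakoff
import Cfsg.Agent.Lib.Helper73.MaximalClassTwo
import Cfsg.Agent.Lib.Helper68.KulRed

set_option autoImplicit false

/-!
2-groups with a cyclic subgroup of index two: parity of the number of cyclic maximal subgroups
and of the number of maximal subgroups with commutator quotient of order four.
-/

namespace Cfsg.Agent.Lib.Helper68.Kul

open Subgroup Cfsg.Agent.Lib.Helper69 Cfsg.Agent.Lib.Helper73

universe u

/-- the setting: `a` generates a cyclic subgroup of index two of the group `X` of order `2 ^ n`,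
`b` lies outside it and conjugates `a` to `a ^ r`. -/
structure CM {X : Type*} [Group X] (n : ℕ) (a b : X) (r : ℕ) : Prop where
  card : Nat.card X = 2 ^ n
  hn : 3 ≤ n
  ord : orderOf a = 2 ^ (n - 1)
  out : b ∉ Subgroup.zpowers a
  conj : b * a * b⁻¹ = a ^ r

section Basics

variable {X : Type*} [Group X] [Finite X] {n : ℕ} {a b : X} {r : ℕ}

theorem CM.cardA (h : CM n a b r) : Nat.card (Subgroup.zpowers a) = 2 ^ (n - 1) := by
  rw [Nat.card_zpowers, h.ord]

theorem CM.idx (h : CM n a b r) : (Subgroup.zpowers a).index = 2 := by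
  have h1 := Subgroup.card_mul_index (Subgroup.zpowers a)
  rw [h.cardA, h.card] at h1
  have hn := h.hn
  have h2 : (2 : ℕ) ^ n = 2 ^ (n - 1) * 2 := by
    rw [← pow_succ]; congr 1; omega
  rw [h2] at h1
  exact Nat.eq_of_mul_eq_mul_left (by positivity) h1

theorem CM.mem_iff (h : CM n a b r) (x : X) : x ∈ Subgroup.zpowers a ↔ ∃ j : ℕ, x = a ^ j := by
  rw [← mem_powers_iff_mem_zpowers]
  constructor
  · rintro ⟨j, hj⟩
    exact ⟨j, hj.symm⟩
  · rintro ⟨j, rfl⟩
    exact ⟨j, rfl⟩

theorem CM.comm (h : CM n a b r) : ∀ x ∈ Subgroup.zpowers a, ∀ y ∈ Subgroup.zpowers a,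
    x * y = y * x := by
  intro x hx y hy
  obtain ⟨j, rfl⟩ := (h.mem_iff x).mp hx
  obtain ⟨k, rfl⟩ := (h.mem_iff y).mp hy
  rw [← pow_add, ← pow_add, add_comm]

theorem CM.conj_pow (h : CM n a b r) (j : ℕ) : b * a ^ j * b⁻¹ = (a ^ j) ^ r := by
  rw [← _root_.conj_pow, h.conj, ← pow_mul, ← pow_mul, mul_comm]

/-- any element conjugates `a` to a power of `a` with the same exponent `r` when it lies outside. -/
theorem CM.outside (h : CM n a b r) {s : X} (hs : s ∉ Subgroup.zpowers a) :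
    ∃ j : ℕ, s = a ^ j * b := by
  have h1 : s * b⁻¹ ∈ Subgroup.zpowers a := by
    rw [Subgroup.mul_mem_iff_of_index_two h.idx]
    constructor
    · intro h2; exact absurd h2 hs
    · intro h2; exact absurd (by simpa using inv_mem h2) h.out
  obtain ⟨j, hj⟩ := (h.mem_iff _).mp h1
  refine ⟨j, ?_⟩
  rw [← hj]; group

theorem CM.sq_out (h : CM n a b r) (j : ℕ) : (a ^ j * b) ^ 2 = a ^ (j * (1 + r)) * b ^ 2 := by
  have h1 := twisted_pow (h.conj_pow j) 2
  rw [h1, ← pow_mul]
  congr 2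
  simp [Finset.sum_range_succ]

theorem CM.conj_out (h : CM n a b r) {s : X} (hs : s ∉ Subgroup.zpowers a) :
    s * a * s⁻¹ = a ^ r := by
  obtain ⟨j, rfl⟩ := h.outside hs
  have h1 : a ^ j * b * a * (a ^ j * b)⁻¹ = a ^ j * (b * a * b⁻¹) * (a ^ j)⁻¹ := by group
  rw [h1, h.conj]
  have h2 : a ^ j * a ^ r = a ^ r * a ^ j := by rw [← pow_add, ← pow_add, add_comm]
  rw [h2]; group

theorem CM.r_odd (h : CM n a b r) : r % 2 = 1 := by
  have hn := h.hn
  have h1 : orderOf (a ^ r) = orderOf a := by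
    have hs : SemiconjBy b a (a ^ r) := by
      unfold SemiconjBy
      rw [← h.conj]; group
    exact (SemiconjBy.orderOf_eq b hs).symm
  have hfin : IsOfFinOrder a := isOfFinOrder_of_finite a
  rw [hfin.orderOf_pow, h.ord] at h1
  by_contra hr
  have h2 : 2 ∣ r := by omega
  have h3 : 2 ∣ Nat.gcd (2 ^ (n - 1)) r := Nat.dvd_gcd (dvd_pow_self 2 (by omega)) h2
  have h4 : Nat.gcd (2 ^ (n - 1)) r = 1 := by
    have hpos : 0 < Nat.gcd (2 ^ (n - 1)) r := Nat.gcd_pos_of_pos_left _ (by positivity)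
    have := Nat.div_eq_self.mp h1
    rcases this with h5 | h5
    · have : (2 : ℕ) ^ (n - 1) ≠ 0 := by positivity
      exact absurd h5 this
    · exact h5
  rw [h4] at h3
  omega

theorem CM.sq_mem (h : CM n a b r) (s : X) : s ^ 2 ∈ Subgroup.zpowers a :=
  Subgroup.sq_mem_of_index_two h.idx s

theorem CM.pgroup (h : CM n a b r) : IsPGroup 2 X := IsPGroup.of_card h.card

end Basics

section Gen

variable {X : Type*} [Group X] [Finite X]

theorem odd_card_maxOver (hP : IsPGroup 2 X) (K : Subgroup X) (hK : K ≠ ⊤) :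
    Odd (Nat.card (MaxOver 2 K)) := by
  haveI : Fact (Nat.Prime 2) := ⟨Nat.prime_two⟩
  obtain ⟨c, hc⟩ := card_maxOver 2 hP K
  have hne := exists_maxOver 2 hP K hK
  have hpos : 0 < Nat.card (MaxOver 2 K) := Nat.card_pos
  have hc1 : c ≠ 0 := by
    rintro rfl
    simp at hc
    omega
  obtain ⟨d, rfl⟩ : ∃ d, c = d + 1 := ⟨c - 1, by omega⟩
  rw [pow_succ] at hc
  rw [Nat.odd_iff]
  omega

theorem isCyclic_of_mem_pow_ne {n : ℕ} (hn : 2 ≤ n) (hX : Nat.card X = 2 ^ n)
    (M : Subgroup X) (hM : M.index = 2) {s : X} (hs : s ∈ M) (hs1 : s ^ (2 ^ (n - 2)) ≠ 1) :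
    IsCyclic M := by
  haveI : Fact (Nat.Prime 2) := ⟨Nat.prime_two⟩
  have hcM := (card_of_index_eq_prime 2 n hX M hM).1
  have h1 : orderOf s ∣ 2 ^ (n - 1) := by
    have := Subgroup.orderOf_dvd_natCard M hs
    rwa [hcM] at this
  obtain ⟨j, hj, hoj⟩ := (Nat.dvd_prime_pow Nat.prime_two).mp h1
  have hj2 : j = n - 1 := by
    by_contra hj'
    apply hs1
    rw [← orderOf_dvd_iff_pow_eq_one, hoj]
    exact pow_dvd_pow 2 (by omega)
  have hz : Subgroup.zpowers s = M := by
    apply Subgroup.eq_of_le_of_card_ge (Subgroup.zpowers_le.mpr hs)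
    rw [Nat.card_zpowers, hoj, hj2, hcM]
  have h2 : IsCyclic (Subgroup.zpowers s) := Subgroup.isCyclic_zpowers s
  rwa [hz] at h2

end Gen

section Parity

variable {X : Type*} [Group X] [Finite X] {n : ℕ} {a b : X} {r : ℕ}

/-- the commutator quotient has order four exactly when `r ≡ 3 (mod 4)`. -/
theorem CM.rt_iff (h : CM n a b r) : (commutator X).index = 4 ↔ r % 4 = 3 := by
  have hn := h.hn
  have hidx := h.idx
  have hAc := h.comm
  obtain ⟨δ, hδ⟩ := exists_delta hidx hAc b
  have hcm := card_commutator_mul_card_ker hidx hAc h.out δ hδ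
  have hrk : Nat.card δ.range * Nat.card δ.ker = Nat.card (Subgroup.zpowers a) := by
    rw [Subgroup.card_eq_card_quotient_mul_card_subgroup δ.ker]
    congr 1
    exact (Nat.card_congr (QuotientGroup.quotientKerEquivRange δ).toEquiv).symm
  have hker_pos : 0 < Nat.card δ.ker := Nat.card_pos
  have hcr : Nat.card (commutator X) = Nat.card δ.range :=
    Nat.eq_of_mul_eq_mul_right hker_pos (hcm.trans hrk.symm)
  set a' : Subgroup.zpowers a := ⟨a, Subgroup.mem_zpowers a⟩ with ha'
  have hgen : ∀ x : Subgroup.zpowers a, x ∈ Subgroup.zpowers a' := by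
    intro x
    obtain ⟨k, hk⟩ := Subgroup.mem_zpowers_iff.mp x.2
    refine Subgroup.mem_zpowers_iff.mpr ⟨k, ?_⟩
    apply Subtype.ext
    rw [Subgroup.coe_zpow]; exact hk
  have hrange : δ.range = Subgroup.zpowers (δ a') := by
    apply le_antisymm
    · rintro _ ⟨x, rfl⟩
      obtain ⟨k, hk⟩ := Subgroup.mem_zpowers_iff.mp (hgen x)
      rw [← hk, map_zpow]
      exact Subgroup.zpow_mem_zpowers _ _
    · rw [Subgroup.zpowers_le]; exact ⟨a', rfl⟩
  have hro := h.r_odd
  have hr0 : 1 ≤ r := by omega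
  have hδa : ((δ a' : Subgroup.zpowers a) : X) = a ^ (r - 1) := by
    rw [hδ a']
    show b * a * b⁻¹ * a⁻¹ = a ^ (r - 1)
    rw [h.conj]
    have : r = (r - 1) + 1 := by omega
    conv_lhs => rw [this, pow_succ]
    group
  have hcardc : Nat.card (commutator X) = 2 ^ (n - 1) / Nat.gcd (2 ^ (n - 1)) (r - 1) := by
    rw [hcr, hrange, Nat.card_zpowers, ← Subgroup.orderOf_coe, hδa,
      (isOfFinOrder_of_finite a).orderOf_pow, h.ord]
  set g := Nat.gcd (2 ^ (n - 1)) (r - 1) with hg
  have hgdvd : g ∣ 2 ^ (n - 1) := Nat.gcd_dvd_left _ _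
  have hgr : g ∣ r - 1 := Nat.gcd_dvd_right _ _
  obtain ⟨j, hj, hgj⟩ := (Nat.dvd_prime_pow Nat.prime_two).mp hgdvd
  have hci := Subgroup.card_mul_index (commutator X)
  rw [hcardc, h.card, hgj, Nat.pow_div hj (by norm_num)] at hci
  have hidx2 : (commutator X).index = 2 ^ (j + 1) := by
    have e : (2 : ℕ) ^ n = 2 ^ (n - 1 - j) * 2 ^ (j + 1) := by
      rw [← pow_add]; congr 1; omega
    rw [e] at hci
    exact Nat.eq_of_mul_eq_mul_left (by positivity) hci
  rw [hidx2]
  have h4 : (4 : ℕ) = 2 ^ (1 + 1) := by norm_num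
  constructor
  · intro h1
    rw [h4] at h1
    have hj1 : j = 1 := by
      have := Nat.pow_right_injective (le_refl 2) h1
      omega
    rw [hj1] at hgj
    by_contra hr3
    have h41 : 4 ∣ r - 1 := by omega
    have h42 : (4 : ℕ) ∣ 2 ^ (n - 1) := by
      have : n - 1 = (n - 3) + 2 := by omega
      rw [this, pow_add]
      exact Dvd.intro_left _ rfl
    have h43 : 4 ∣ g := Nat.dvd_gcd h42 h41
    rw [hgj] at h43
    omega
  · intro hr3
    have h2g : 2 ∣ g := Nat.dvd_gcd (dvd_pow_self 2 (by omega)) (by omega)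
    have hj1 : j = 1 := by
      rcases Nat.lt_or_ge j 2 with hlt | hge
      · rcases Nat.eq_zero_or_pos j with h0 | hpos
        · rw [hgj, h0] at h2g
          simp at h2g
        · omega
      · exfalso
        have h4g : 4 ∣ g := by
          rw [hgj]
          have : j = (j - 2) + 2 := by omega
          rw [this, pow_add]
          exact Dvd.intro_left _ rfl
        have := h4g.trans hgr
        omega
    rw [hj1]
    norm_num

theorem CM.pow_out (h : CM n a b r) (hr : r % 4 = 3) {s : X} (hs : s ∉ Subgroup.zpowers a) :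
    s ^ (2 ^ (n - 2)) = b ^ (2 ^ (n - 2)) := by
  have hn := h.hn
  obtain ⟨j, rfl⟩ := h.outside hs
  have e : (2 : ℕ) ^ (n - 2) = 2 * 2 ^ (n - 3) := by
    rw [← pow_succ']; congr 1; omega
  rw [e, pow_mul, h.sq_out j, pow_mul b]
  have hc : Commute (a ^ (j * (1 + r))) (b ^ 2) :=
    h.comm _ (Subgroup.pow_mem _ (Subgroup.mem_zpowers a) _) _ (h.sq_mem b)
  rw [hc.mul_pow, ← pow_mul]
  have h1 : a ^ (j * (1 + r) * 2 ^ (n - 3)) = 1 := by
    apply orderOf_dvd_iff_pow_eq_one.mp
    rw [h.ord]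
    obtain ⟨t, ht⟩ : 4 ∣ 1 + r := by omega
    rw [ht]
    have e2 : (2 : ℕ) ^ (n - 1) = 4 * 2 ^ (n - 3) := by
      have : n - 1 = (n - 3) + 2 := by omega
      rw [this, pow_add]; ring
    rw [e2]
    exact ⟨j * t, by ring⟩
  rw [h1, one_mul]

theorem CM.odd_cyc (h : CM n a b r) (hr : r % 4 = 3) (hnc : ¬ IsCyclic X) :
    Odd (Nat.card {M : Subgroup X // M.index = 2 ∧ IsCyclic M}) := by
  haveI : Fact (Nat.Prime 2) := ⟨Nat.prime_two⟩
  have hn := h.hn
  have hP := h.pgroup
  by_cases hb : b ^ (2 ^ (n - 2)) = 1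
  · have huniq : ∀ M : {M : Subgroup X // M.index = 2 ∧ IsCyclic M},
        M.1 = Subgroup.zpowers a := by
      intro M
      by_contra hne
      obtain ⟨g, hg⟩ := M.2.2.exists_generator
      have hcM := (card_of_index_eq_prime 2 n h.card M.1 M.2.1).1
      have hog : orderOf (g : X) = 2 ^ (n - 1) := by
        rw [Subgroup.orderOf_coe, orderOf_eq_card_of_forall_mem_zpowers hg, hcM]
      have hgA : (g : X) ∉ Subgroup.zpowers a := by
        intro hgA
        apply hne
        have hMle : M.1 ≤ Subgroup.zpowers a := by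
          intro x hx
          obtain ⟨k, hk⟩ := Subgroup.mem_zpowers_iff.mp (hg ⟨x, hx⟩)
          have hk' : (g : X) ^ k = x := by
            have := congrArg Subtype.val hk
            simpa using this
          rw [← hk']
          exact Subgroup.zpow_mem _ hgA k
        exact Subgroup.eq_of_le_of_card_ge hMle (by rw [h.cardA, hcM])
      have h1 := h.pow_out hr hgA
      rw [hb] at h1
      have h2 := orderOf_dvd_of_pow_eq_one h1
      rw [hog] at h2
      have := (Nat.pow_dvd_pow_iff_le_right (by norm_num : 1 < 2)).mp h2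
      omega
    have hA : (Subgroup.zpowers a).index = 2 ∧ IsCyclic (Subgroup.zpowers a) :=
      ⟨h.idx, Subgroup.isCyclic_zpowers a⟩
    have : Nat.card {M : Subgroup X // M.index = 2 ∧ IsCyclic M} = 1 := by
      rw [Nat.card_eq_one_iff_unique]
      exact ⟨⟨fun M N => Subtype.ext ((huniq M).trans (huniq N).symm)⟩, ⟨⟨_, hA⟩⟩⟩
    rw [this]; exact odd_one
  · have hall : ∀ M : Subgroup X, M.index = 2 → IsCyclic M := by
      intro M hM
      by_cases hMA : M = Subgroup.zpowers a
      · rw [hMA]; exact Subgroup.isCyclic_zpowers a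
      · have hcM := (card_of_index_eq_prime 2 n h.card M hM).1
        obtain ⟨s, hsM, hsA⟩ : ∃ s, s ∈ M ∧ s ∉ Subgroup.zpowers a := by
          by_contra hcon
          push Not at hcon
          exact hMA (Subgroup.eq_of_le_of_card_ge hcon (by rw [h.cardA, hcM]))
        have h1 := h.pow_out hr hsA
        exact isCyclic_of_mem_pow_ne (by omega) h.card M hM hsM (by rw [h1]; exact hb)
    have e : {M : Subgroup X // M.index = 2 ∧ IsCyclic M} ≃ MaxOver 2 (⊥ : Subgroup X) :=
      ⟨fun M => ⟨M.1, M.2.1, bot_le⟩, fun M => ⟨M.1, M.2.1, hall M.1 M.2.1⟩,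
        fun _ => rfl, fun _ => rfl⟩
    rw [Nat.card_congr e]
    exact odd_card_maxOver hP ⊥ (bot_ne_top_of_not_cyclic hnc)

/-- when `r ≡ 1 (mod 4)` the elements of order less than `2 ^ (n - 1)` form a subgroup of index
two (transfer into the cyclic subgroup, as in `Helper69.exists_index_p_pow_kernel`). -/
theorem CM.exists_kernel (h : CM n a b r) (hr : r % 4 = 1) (hnc : ¬ IsCyclic X) :
    ∃ M0 : Subgroup X, M0.index = 2 ∧ ∀ g : X, g ∈ M0 ↔ g ^ (2 ^ (n - 2)) = 1 := by
  classical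
  haveI : Fact (Nat.Prime 2) := ⟨Nat.prime_two⟩
  have hp : (2 : ℕ).Prime := Nat.prime_two
  have hn := h.hn
  have hG := h.card
  set A := Subgroup.zpowers a with hAdef
  have hA : A.index = 2 := h.idx
  haveI hAn : A.Normal := Subgroup.normal_of_index_eq_two hA
  have hcardA : Nat.card A = 2 ^ (n - 1) := h.cardA
  have haA : a ∈ A := Subgroup.mem_zpowers a
  have hoa := h.ord
  have hApow : ∀ y ∈ A, ∃ j : ℕ, y = a ^ j := fun y hy => (h.mem_iff y).mp hy
  have hAcomm : ∀ y ∈ A, ∀ c ∈ A, y * c = c * y := h.comm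
  have hg0 : b ∉ A := h.out
  have hrr : b * a * b⁻¹ = a ^ r := h.conj
  set S := ∑ i ∈ Finset.range 2, r ^ i with hS
  have hS' : S = 1 + r := by simp [hS, Finset.sum_range_succ]
  obtain ⟨u, hu, hu2⟩ : ∃ u, S = 2 * u ∧ u % 2 = 1 := ⟨(1 + r) / 2, by omega, by omega⟩
  have hucop : Nat.Coprime 2 u := by
    rw [Nat.coprime_two_left]
    exact Nat.odd_iff.mpr hu2
  haveI : IsCyclic A := Subgroup.isCyclic_zpowers a
  letI : CommGroup A := IsCyclic.commGroup
  let V : X →* A := MonoidHom.transfer (MonoidHom.id A)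
  have hV1 : ∀ g : X, g ∉ A → ((V g : A) : X) = g ^ 2 := by
    intro g hg
    have key : ∀ (k : ℕ) (g₀ : X), g₀⁻¹ * g ^ k * g₀ ∈ A → g₀⁻¹ * g ^ k * g₀ = g ^ k := by
      intro k g₀ hmem
      have hgk : g ^ k ∈ A := by
        have := hAn.conj_mem _ hmem g₀
        have h2 : g₀ * (g₀⁻¹ * g ^ k * g₀) * g₀⁻¹ = g ^ k := by group
        rwa [h2] at this
      obtain ⟨i, hi⟩ := exists_pow_inv_mul_mem 2 A hA g hg g₀
      set c := (g ^ i)⁻¹ * g₀ with hc
      have hg₀ : g₀ = g ^ i * c := by rw [hc]; group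
      have hcomm : g ^ k * c = c * g ^ k := hAcomm _ hgk _ hi
      have hcomm2 : g ^ k * g ^ i = g ^ i * g ^ k := by
        rw [← pow_add, ← pow_add, add_comm]
      rw [hg₀]
      calc (g ^ i * c)⁻¹ * g ^ k * (g ^ i * c)
          = c⁻¹ * (g ^ i)⁻¹ * (g ^ k * g ^ i) * c := by group
        _ = c⁻¹ * (g ^ i)⁻¹ * (g ^ i * g ^ k) * c := by rw [hcomm2]
        _ = c⁻¹ * (g ^ k * c) := by group
        _ = c⁻¹ * (c * g ^ k) := by rw [hcomm]
        _ = g ^ k := by group
    have h1 := MonoidHom.transfer_eq_pow (MonoidHom.id A) g key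
    have h2 : ((V g : A) : X) = g ^ A.index := congrArg Subtype.val h1
    rw [hA] at h2
    exact h2
  have hVa : ((V a : A) : X) = a ^ S := by
    have hag : a * b ∉ A := by
      intro h'
      apply hg0
      have := A.mul_mem (A.inv_mem haA) h'
      rwa [inv_mul_cancel_left] at this
    have h1 : V a = V (a * b) * (V b)⁻¹ := by rw [map_mul]; group
    have h2 := congrArg Subtype.val h1
    rw [Subgroup.coe_mul, Subgroup.coe_inv, hV1 _ hag, hV1 _ hg0, twisted_pow hrr 2] at h2
    rw [h2, mul_inv_cancel_right]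
  have hVA : ∀ y ∈ A, ((V y : A) : X) = y ^ S := by
    intro y hy
    obtain ⟨j, rfl⟩ := hApow y hy
    rw [map_pow, Subgroup.coe_pow, hVa, ← pow_mul, ← pow_mul, mul_comm]
  let κ : X →* A := (powMonoidHom (2 ^ (n - 3))).comp V
  have hκ : ∀ g, ((κ g : A) : X) = ((V g : A) : X) ^ (2 ^ (n - 3)) := by
    intro g
    show (((V g) ^ (2 ^ (n - 3)) : A) : X) = _
    rw [Subgroup.coe_pow]
  have hpn : 2 * 2 ^ (n - 3) = 2 ^ (n - 2) := by
    rw [← pow_succ']; congr 1; omega
  have hmem : ∀ g : X, g ∈ κ.ker ↔ g ^ (2 ^ (n - 2)) = 1 := by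
    intro g
    rw [MonoidHom.mem_ker, ← OneMemClass.coe_eq_one, hκ]
    by_cases hg : g ∈ A
    · rw [hVA g hg, ← pow_mul, hu]
      have h1 : orderOf g ∣ 2 ^ n := hG ▸ orderOf_dvd_natCard g
      obtain ⟨j, hj, hoj⟩ := (Nat.dvd_prime_pow hp).mp h1
      rw [← orderOf_dvd_iff_pow_eq_one, ← orderOf_dvd_iff_pow_eq_one, hoj]
      have h2 : 2 * u * 2 ^ (n - 3) = 2 ^ (n - 2) * u := by rw [← hpn]; ring
      rw [h2]
      exact Nat.Coprime.dvd_mul_right (Nat.Coprime.pow_left j hucop)
    · rw [hV1 g hg, ← pow_mul, hpn]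
  have hanot : a ∉ κ.ker := by
    rw [hmem, ← orderOf_dvd_iff_pow_eq_one, hoa]
    intro h'
    have := Nat.pow_dvd_pow_iff_le_right hp.one_lt |>.mp h'
    omega
  refine ⟨κ.ker, ?_, hmem⟩
  rw [Subgroup.index_ker]
  haveI : IsCyclic κ.range := Subgroup.isCyclic _
  obtain ⟨y, hy⟩ := IsCyclic.exists_generator (α := κ.range)
  have hoy : orderOf y = Nat.card κ.range := orderOf_eq_card_of_forall_mem_zpowers hy
  have hyp : y ^ 2 = 1 := by
    obtain ⟨g, hg⟩ := y.2
    apply Subtype.ext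
    rw [Subgroup.coe_pow, ← hg]
    apply Subtype.ext
    rw [Subgroup.coe_pow, hκ, ← pow_mul]
    show ((V g : A) : X) ^ (2 ^ (n - 3) * 2) = 1
    have hpn' : 2 ^ (n - 3) * 2 = 2 ^ (n - 2) := by rw [mul_comm]; exact hpn
    rw [hpn']
    by_cases hgA : g ∈ A
    · rw [hVA g hgA, ← pow_mul, hu]
      have h1 : orderOf g ∣ 2 ^ (n - 1) := by
        have := Subgroup.orderOf_dvd_natCard A hgA
        rwa [hcardA] at this
      apply orderOf_dvd_iff_pow_eq_one.mp
      apply h1.trans
      have h2 : 2 * u * 2 ^ (n - 2) = 2 ^ (n - 1) * u := by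
        have : (2 : ℕ) ^ (n - 1) = 2 * 2 ^ (n - 2) := by
          rw [← pow_succ']; congr 1; omega
        rw [this]; ring
      rw [h2]
      exact Dvd.intro _ rfl
    · rw [hV1 g hgA, ← pow_mul]
      have h2 : 2 * 2 ^ (n - 2) = 2 ^ (n - 1) := by
        rw [← pow_succ']; congr 1; omega
      rw [h2]
      exact pow_pred_eq_one_of_not_cyclic 2 n hG (by omega) hnc g
  have hdvd : Nat.card κ.range ∣ 2 := by
    rw [← hoy]
    exact orderOf_dvd_of_pow_eq_one hyp
  rcases (Nat.dvd_prime hp).mp hdvd with h' | h'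
  · exfalso
    apply hanot
    rw [MonoidHom.mem_ker]
    have h1 : κ a ∈ κ.range := ⟨a, rfl⟩
    haveI : Subsingleton κ.range := (Nat.card_eq_one_iff_unique.mp h').1
    have h2 : (⟨κ a, h1⟩ : κ.range) = 1 := Subsingleton.elim _ _
    exact congrArg Subtype.val h2
  · exact h'

theorem CM.even_cyc (h : CM n a b r) (hr : r % 4 = 1) (hnc : ¬ IsCyclic X) :
    Even (Nat.card {M : Subgroup X // M.index = 2 ∧ IsCyclic M}) := by
  classical
  haveI : Fact (Nat.Prime 2) := ⟨Nat.prime_two⟩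
  have hp : (2 : ℕ).Prime := Nat.prime_two
  have hn := h.hn
  have hG := h.card
  have hPG := h.pgroup
  obtain ⟨M0, hM0, hmem⟩ := h.exists_kernel hr hnc
  have hchar : ∀ M : Subgroup X, M.index = 2 → (IsCyclic M ↔ M ≠ M0) := by
    intro M hM
    have hcM := (card_of_index_eq_prime 2 n hG M hM).1
    constructor
    · intro hc hMM0
      obtain ⟨g, hg⟩ := hc.exists_generator
      have hog : orderOf g = 2 ^ (n - 1) := by
        rw [orderOf_eq_card_of_forall_mem_zpowers hg, hcM]
      have h1 : (g : X) ∈ M0 := hMM0 ▸ g.2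
      rw [hmem, ← orderOf_dvd_iff_pow_eq_one, Subgroup.orderOf_coe, hog] at h1
      have := Nat.pow_dvd_pow_iff_le_right hp.one_lt |>.mp h1
      omega
    · intro hne
      obtain ⟨g, hgM, hgM0⟩ : ∃ g, g ∈ M ∧ g ∉ M0 := by
        by_contra h'
        push Not at h'
        apply hne
        apply Subgroup.eq_of_le_of_card_ge h'
        rw [hcM, (card_of_index_eq_prime 2 n hG M0 hM0).1]
      exact isCyclic_of_mem_pow_ne (by omega) hG M hM hgM (fun h' => hgM0 ((hmem g).mpr h'))
  let M0' : MaxOver 2 (⊥ : Subgroup X) := ⟨M0, hM0, bot_le⟩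
  let e : {M : Subgroup X // M.index = 2 ∧ IsCyclic M} ≃
      {M : MaxOver 2 (⊥ : Subgroup X) // M ≠ M0'} :=
    { toFun := fun M => ⟨⟨M.1, M.2.1, bot_le⟩, by
        intro h'
        exact (hchar M.1 M.2.1).mp M.2.2 (congrArg Subtype.val h')⟩
      invFun := fun M => ⟨M.1.1, M.1.2.1, (hchar M.1.1 M.1.2.1).mpr (by
        intro h'
        apply M.2
        apply Subtype.ext
        exact h')⟩
      left_inv := fun M => rfl
      right_inv := fun M => rfl }
  rw [Nat.card_congr e]
  have h3 := Nat.card_congr (Equiv.optionSubtypeNe M0')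
  rw [Finite.card_option] at h3
  have h4 := odd_card_maxOver hPG ⊥ (bot_ne_top_of_not_cyclic hnc)
  rw [← h3] at h4
  rw [Nat.even_iff]
  rw [Nat.odd_iff] at h4
  omega

end Parity

section Main

variable {X : Type u} [Group X] [Finite X]

theorem exists_CM {n : ℕ} (hn : 3 ≤ n) (hX : Nat.card X = 2 ^ n)
    (A : Subgroup X) (hA : A.index = 2) (hAc : IsCyclic A) :
    ∃ (a b : X) (r : ℕ), CM n a b r ∧ Subgroup.zpowers a = A := by
  haveI : Fact (Nat.Prime 2) := ⟨Nat.prime_two⟩
  have hcA := (card_of_index_eq_prime 2 n hX A hA).1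
  obtain ⟨a', ha'⟩ := hAc.exists_generator
  have hoa : orderOf (a' : X) = 2 ^ (n - 1) := by
    rw [Subgroup.orderOf_coe, orderOf_eq_card_of_forall_mem_zpowers ha', hcA]
  have hz : Subgroup.zpowers (a' : X) = A := by
    apply Subgroup.eq_of_le_of_card_ge (Subgroup.zpowers_le.mpr a'.2)
    rw [Nat.card_zpowers, hoa, hcA]
  have hAne : A ≠ ⊤ := by
    intro h
    rw [h, Subgroup.index_top] at hA
    omega
  obtain ⟨b, hb⟩ : ∃ b, b ∉ A := by
    by_contra h
    push Not at h
    exact hAne (eq_top_iff.mpr fun x _ => h x)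
  haveI hAn : A.Normal := Subgroup.normal_of_index_eq_two hA
  have hconj : b * (a' : X) * b⁻¹ ∈ Subgroup.zpowers (a' : X) := by
    rw [hz]
    exact hAn.conj_mem _ a'.2 b
  rw [← mem_powers_iff_mem_zpowers] at hconj
  obtain ⟨r, hr⟩ := hconj
  exact ⟨a', b, r, ⟨hX, hn, hoa, by rw [hz]; exact hb, hr.symm⟩, hz⟩

/-- in a noncyclic group of order `2 ^ n`, `n ≥ 3`, the number of cyclic maximal subgroups is
odd exactly when the commutator quotient has order four. -/
theorem cyc_odd_iff {n : ℕ} (hn : 3 ≤ n) (hX : Nat.card X = 2 ^ n) (hnc : ¬ IsCyclic X) :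
    Odd (Nat.card {M : Subgroup X // M.index = 2 ∧ IsCyclic M}) ↔
      (commutator X).index = 4 := by
  constructor
  · intro hodd
    have hne : Nonempty {M : Subgroup X // M.index = 2 ∧ IsCyclic M} := by
      by_contra hcon
      rw [not_nonempty_iff] at hcon
      rw [Nat.card_of_isEmpty] at hodd
      simp at hodd
    obtain ⟨⟨A, hA, hAc⟩⟩ := hne
    obtain ⟨a, b, r, hcm, -⟩ := exists_CM hn hX A hA hAc
    have hro := hcm.r_odd
    rcases (by omega : r % 4 = 1 ∨ r % 4 = 3) with h1 | h3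
    · exact absurd hodd (Nat.not_odd_iff_even.mpr (hcm.even_cyc h1 hnc))
    · exact hcm.rt_iff.mpr h3
  · intro hT
    obtain ⟨A, hAc, hA⟩ := exists_cyclic_index_two X (IsPGroup.of_card hX) hT
    obtain ⟨a, b, r, hcm, -⟩ := exists_CM hn hX A hA hAc
    exact hcm.odd_cyc (hcm.rt_iff.mp hT) hnc

/-- a cyclic group of order at least eight does not have commutator quotient of order four. -/
theorem not_T_of_isCyclic {Y : Type*} [Group Y] [Finite Y] {m : ℕ} (hm : 3 ≤ m)
    (hY : Nat.card Y = 2 ^ m) (hc : IsCyclic Y) : (commutator Y).index ≠ 4 := by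
  intro h4
  letI : CommGroup Y := IsCyclic.commGroup
  have h1 : commutator Y = ⊥ := commutator_eq_bot_of_comm (fun x y => mul_comm x y)
  rw [h1, Subgroup.index_bot, hY] at h4
  have h5 : (2 : ℕ) ^ m = 2 ^ 2 := by rw [h4]; norm_num
  have := Nat.pow_right_injective (le_refl 2) h5
  omega

/-- case of a cyclic maximal subgroup: the number of maximal subgroups with commutator quotient
of order four is even. -/
theorem CM.T_even {n : ℕ} {a b : X} {r : ℕ} (h : CM n a b r) (hn4 : 4 ≤ n)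
    (hnc : ¬ IsCyclic X) :
    Even (Nat.card {M : Subgroup X // M.index = 2 ∧ (commutator M).index = 4}) := by
  classical
  haveI : Fact (Nat.Prime 2) := ⟨Nat.prime_two⟩
  have hP := h.pgroup
  have key : ∀ M : Subgroup X, M.index = 2 →
      ((commutator M).index = 4 ↔ (¬ IsCyclic M ∧ r % 4 = 3)) := by
    intro M hM
    have hcM := (card_of_index_eq_prime 2 n h.card M hM).1
    by_cases hc : IsCyclic M
    · constructor
      · intro hT
        exact absurd hT (not_T_of_isCyclic (by omega) hcM hc)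
      · rintro ⟨h1, -⟩
        exact absurd hc h1
    · obtain ⟨s, hsM, hsA⟩ : ∃ s, s ∈ M ∧ s ∉ Subgroup.zpowers a := by
        by_contra hcon
        push Not at hcon
        apply hc
        have : M = Subgroup.zpowers a :=
          Subgroup.eq_of_le_of_card_ge hcon (by rw [h.cardA, hcM])
        rw [this]
        exact Subgroup.isCyclic_zpowers a
      have ha2 : a ^ 2 ∈ M := Subgroup.sq_mem_of_index_two hM a
      have hcmM : CM (n - 1) (⟨a ^ 2, ha2⟩ : M) (⟨s, hsM⟩ : M) r := by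
        refine ⟨hcM, by omega, ?_, ?_, ?_⟩
        · rw [← Subgroup.orderOf_coe]
          show orderOf (a ^ 2) = _
          rw [(isOfFinOrder_of_finite a).orderOf_pow, h.ord]
          have e1 : Nat.gcd (2 ^ (n - 1)) 2 = 2 :=
            Nat.gcd_eq_right (dvd_pow_self 2 (by omega))
          rw [e1]
          have e2 : (2 : ℕ) ^ (n - 1) = 2 ^ (n - 1 - 1) * 2 := by
            rw [← pow_succ]; congr 1; omega
          rw [e2, Nat.mul_div_cancel _ (by norm_num)]
        · intro hmem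
          obtain ⟨k, hk⟩ := Subgroup.mem_zpowers_iff.mp hmem
          apply hsA
          have hk' : (a ^ 2) ^ k = s := by
            have := congrArg Subtype.val hk
            simpa using this
          rw [← hk', ← zpow_natCast, ← zpow_mul]
          exact Subgroup.zpow_mem_zpowers a _
        · apply Subtype.ext
          show s * a ^ 2 * s⁻¹ = (a ^ 2) ^ r
          rw [← _root_.conj_pow, h.conj_out hsA, ← pow_mul, ← pow_mul, mul_comm]
      constructor
      · intro hT
        exact ⟨hc, hcmM.rt_iff.mp hT⟩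
      · rintro ⟨-, h3⟩
        exact hcmM.rt_iff.mpr h3
  by_cases hr : r % 4 = 3
  · let e : {M : Subgroup X // M.index = 2 ∧ (commutator M).index = 4} ≃
        {M : MaxOver 2 (⊥ : Subgroup X) // ¬ IsCyclic M.1} :=
      { toFun := fun M => ⟨⟨M.1, M.2.1, bot_le⟩, ((key M.1 M.2.1).mp M.2.2).1⟩
        invFun := fun M => ⟨M.1.1, M.1.2.1, (key M.1.1 M.1.2.1).mpr ⟨M.2, hr⟩⟩
        left_inv := fun _ => rfl
        right_inv := fun _ => rfl }
    rw [Nat.card_congr e]
    have hsum := Nat.card_congr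
      (Equiv.sumCompl (fun M : MaxOver 2 (⊥ : Subgroup X) => IsCyclic M.1))
    rw [Nat.card_sum] at hsum
    have e2 : {M : MaxOver 2 (⊥ : Subgroup X) // IsCyclic M.1} ≃
        {M : Subgroup X // M.index = 2 ∧ IsCyclic M} :=
      ⟨fun M => ⟨M.1.1, M.1.2.1, M.2⟩, fun M => ⟨⟨M.1, M.2.1, bot_le⟩, M.2.2⟩,
        fun _ => rfl, fun _ => rfl⟩
    rw [Nat.card_congr e2] at hsum
    have h1 := h.odd_cyc hr hnc
    have h2 := odd_card_maxOver hP ⊥ (bot_ne_top_of_not_cyclic hnc)
    rw [← hsum] at h2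
    rw [Nat.odd_iff] at h1 h2
    rw [Nat.even_iff]
    omega
  · haveI : IsEmpty {M : Subgroup X // M.index = 2 ∧ (commutator M).index = 4} :=
      ⟨fun M => hr ((key M.1 M.2.1).mp M.2.2).2⟩
    rw [Nat.card_of_isEmpty]
    exact ⟨0, rfl⟩

end Main

end Cfsg.Agent.Lib.Helper68.Kul
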