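import Mathlib
import Cfsg.Agent.Lib.Helper68.CycMax2

set_option autoImplicit false

/-!
Abelian subgroups of index two: in a non-abelian `2`-group their number is odd as soon as there is
one; a group of order sixteen with commutator subgroup of order two has one.
-/

namespace Cfsg.Agent.Lib.Helper68.Kul

open Cfsg.Agent.Lib.Helper69 Cfsg.Agent.Lib.Helper73

open scoped commutatorElement

section Q16

variable {Q : Type*} [Group Q]

/-- a subgroup with a central subgroup of index at most two is commutative. -/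
theorem comm_of_central_index_two [Finite Q] (M Z : Subgroup Q) (hZM : Z ≤ M)
    (hZc : ∀ z ∈ Z, ∀ m ∈ M, z * m = m * z) (hcard : Nat.card M ≤ 2 * Nat.card Z) :
    ∀ a ∈ M, ∀ b ∈ M, a * b = b * a := by
  intro a ha b hb
  by_cases haZ : a ∈ Z
  · exact hZc a haZ b hb
  by_cases hbZ : b ∈ Z
  · exact (hZc b hbZ a ha).symm
  have hidx : (Z.subgroupOf M).index = 2 := by
    have h1 := (Z.subgroupOf M).card_mul_index
    have h2 : Nat.card (Z.subgroupOf M) = Nat.card Z :=
      Nat.card_congr (Subgroup.subgroupOfEquivOfLe hZM).toEquiv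
    rw [h2] at h1
    have hpos : 0 < Nat.card Z := Nat.card_pos
    have hle : (Z.subgroupOf M).index ≤ 2 := by
      by_contra hcon
      push Not at hcon
      have : Nat.card Z * 3 ≤ Nat.card Z * (Z.subgroupOf M).index := Nat.mul_le_mul_left _ hcon
      omega
    have hne1 : (Z.subgroupOf M).index ≠ 1 := by
      intro h
      rw [Subgroup.index_eq_one] at h
      have : (⟨a, ha⟩ : M) ∈ Z.subgroupOf M := by rw [h]; exact Subgroup.mem_top _
      exact haZ (Subgroup.mem_subgroupOf.mp this)
    have hne0 : (Z.subgroupOf M).index ≠ 0 := Subgroup.index_ne_zero_of_finite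
    omega
  have hab : a * b⁻¹ ∈ Z := by
    have h3 : (⟨a, ha⟩ : M) * (⟨b, hb⟩ : M)⁻¹ ∈ Z.subgroupOf M := by
      rw [Subgroup.mul_mem_iff_of_index_two hidx, inv_mem_iff]
      constructor
      · intro h; exact absurd (Subgroup.mem_subgroupOf.mp h) haZ
      · intro h; exact absurd (Subgroup.mem_subgroupOf.mp h) hbZ
    exact Subgroup.mem_subgroupOf.mp h3
  have h4 := hZc _ hab b hb
  calc a * b = a * b⁻¹ * b * b := by group
    _ = b * (a * b⁻¹) * b := by rw [h4]
    _ = b * a := by group

theorem mem_centralizer_single (x g : Q) :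
    g ∈ Subgroup.centralizer {x} ↔ g * x = x * g := by
  rw [Subgroup.mem_centralizer_iff]
  constructor
  · intro hg; exact (hg x rfl).symm
  · intro hg w hw
    rw [Set.mem_singleton_iff] at hw
    rw [hw]; exact hg.symm

/-- if all conjugates of `x` are `x` or `z * x` with `z` a central involution, the centralizer
of `x` has index two (when `x` is not central). -/
theorem index_centralizer_eq_two (x z : Q) (hz : ∀ g : Q, g * z = z * g) (hz2 : z * z = 1)
    (h : ∀ g : Q, g * x = x * g ∨ g * x = z * (x * g)) (y : Q) (hy : y * x ≠ x * y) :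
    (Subgroup.centralizer {x}).index = 2 := by
  have hyz : y * x = z * (x * y) := (h y).resolve_left hy
  rw [Subgroup.index_eq_two_iff]
  refine ⟨y, fun b => ?_⟩
  rw [mem_centralizer_single, mem_centralizer_single]
  by_cases hb : b * x = x * b
  · refine Or.inr ⟨hb, ?_⟩
    intro hby
    have e1 : b * y * x = z * (x * (b * y)) := by
      calc b * y * x = b * (y * x) := by rw [mul_assoc]
        _ = b * (z * (x * y)) := by rw [hyz]
        _ = (b * z) * (x * y) := by rw [mul_assoc]
        _ = (z * b) * (x * y) := by rw [hz b]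
        _ = z * ((b * x) * y) := by simp only [mul_assoc]
        _ = z * ((x * b) * y) := by rw [hb]
        _ = z * (x * (b * y)) := by simp only [mul_assoc]
    have e2 : z = 1 := by
      have h5 : z * (x * (b * y)) = 1 * (x * (b * y)) := by rw [one_mul, ← e1, hby]
      exact mul_right_cancel h5
    apply hy
    rw [hyz, e2, one_mul]
  · have hbz : b * x = z * (x * b) := (h b).resolve_left hb
    refine Or.inl ⟨?_, hb⟩
    calc b * y * x = b * (y * x) := by rw [mul_assoc]
      _ = b * (z * (x * y)) := by rw [hyz]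
      _ = (b * z) * (x * y) := by rw [mul_assoc]
      _ = (z * b) * (x * y) := by rw [hz b]
      _ = z * ((b * x) * y) := by simp only [mul_assoc]
      _ = z * ((z * (x * b)) * y) := by rw [hbz]
      _ = (z * z) * (x * (b * y)) := by simp only [mul_assoc]
      _ = x * (b * y) := by rw [hz2, one_mul]

/-- in a non-abelian `2`-group with an abelian subgroup of index two, the number of abelian
subgroups of index two is odd. -/
theorem odd_abelian_index_two [Finite Q] (hP : IsPGroup 2 Q) (hna : ∃ x y : Q, y * x ≠ x * y)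
    (A : Subgroup Q) (hA : A.index = 2) (hAc : ∀ a ∈ A, ∀ b ∈ A, a * b = b * a) :
    Odd (Nat.card {M : Subgroup Q // M.index = 2 ∧ ∀ a ∈ M, ∀ b ∈ M, a * b = b * a}) := by
  by_cases huniq : ∀ M : Subgroup Q, M.index = 2 → (∀ a ∈ M, ∀ b ∈ M, a * b = b * a) → M = A
  · have : Nat.card {M : Subgroup Q // M.index = 2 ∧ ∀ a ∈ M, ∀ b ∈ M, a * b = b * a} = 1 := by
      rw [Nat.card_eq_one_iff_unique]
      refine ⟨⟨fun M N => Subtype.ext ?_⟩, ⟨⟨A, hA, hAc⟩⟩⟩
      rw [huniq M.1 M.2.1 M.2.2, huniq N.1 N.2.1 N.2.2]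
    rw [this]; exact odd_one
  · push Not at huniq
    obtain ⟨B, hB, hBc, hBA⟩ := huniq
    obtain ⟨b₀, hb₀B, hb₀A⟩ : ∃ b₀, b₀ ∈ B ∧ b₀ ∉ A := by
      by_contra hcon
      push Not at hcon
      apply hBA
      apply Subgroup.eq_of_le_of_card_ge hcon
      have h1 := A.card_mul_index
      have h2 := B.card_mul_index
      rw [hA] at h1; rw [hB] at h2
      omega
    set Z : Subgroup Q := A ⊓ B with hZdef
    have hZcent : ∀ g ∈ Z, ∀ q : Q, g * q = q * g := by
      intro g hg q
      by_cases hq : q ∈ A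
      · exact hAc g hg.1 q hq
      · have hqb : q * b₀⁻¹ ∈ A := by
          rw [Subgroup.mul_mem_iff_of_index_two hA, inv_mem_iff]
          exact ⟨fun h => absurd h hq, fun h => absurd h hb₀A⟩
        have e1 := hAc g hg.1 _ hqb
        have e2 := hBc g hg.2 b₀ hb₀B
        calc g * q = g * (q * b₀⁻¹) * b₀ := by group
          _ = q * b₀⁻¹ * g * b₀ := by rw [e1]
          _ = q * b₀⁻¹ * (g * b₀) := by group
          _ = q * b₀⁻¹ * (b₀ * g) := by rw [e2]
          _ = q * g := by group
    have hZtop : Z ≠ ⊤ := by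
      intro h
      have hAtop : A = ⊤ := top_unique (h ▸ inf_le_left)
      rw [hAtop, Subgroup.index_top] at hA
      omega
    have hZidx : Z.index ≤ 4 := by
      have := Subgroup.index_inf_le (H := A) (K := B)
      rw [hA, hB] at this
      exact this
    have hiff : ∀ M : Subgroup Q, M.index = 2 →
        ((∀ a ∈ M, ∀ b ∈ M, a * b = b * a) ↔ Z ≤ M) := by
      intro M hM
      constructor
      · intro hMc g hg
        by_contra hgM
        obtain ⟨x, y, hxy⟩ := hna
        have hdec : ∀ q : Q, ∃ m ∈ M, ∃ c : Q, (∀ t : Q, c * t = t * c) ∧ q = m * c := by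
          intro q
          by_cases hq : q ∈ M
          · exact ⟨q, hq, 1, fun t => by simp, by simp⟩
          · refine ⟨q * g⁻¹, ?_, g, hZcent g hg, by group⟩
            rw [Subgroup.mul_mem_iff_of_index_two hM, inv_mem_iff]
            exact ⟨fun h => absurd h hq, fun h => absurd h hgM⟩
        obtain ⟨m₁, hm₁, c₁, hc₁, rfl⟩ := hdec x
        obtain ⟨m₂, hm₂, c₂, hc₂, rfl⟩ := hdec y
        apply hxy
        calc m₂ * c₂ * (m₁ * c₁) = m₂ * (c₂ * m₁) * c₁ := by group
          _ = m₂ * (m₁ * c₂) * c₁ := by rw [hc₂ m₁]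
          _ = (m₂ * m₁) * (c₂ * c₁) := by group
          _ = (m₁ * m₂) * (c₁ * c₂) := by rw [hMc m₂ hm₂ m₁ hm₁, hc₂ c₁]
          _ = m₁ * (m₂ * c₁) * c₂ := by group
          _ = m₁ * (c₁ * m₂) * c₂ := by rw [← hc₁ m₂]
          _ = m₁ * c₁ * (m₂ * c₂) := by group
      · intro hZM
        apply comm_of_central_index_two M Z hZM (fun z hz m _ => hZcent z hz m)
        have h1 := M.card_mul_index
        have h2 := Z.card_mul_index
        rw [hM] at h1
        have h3 : Nat.card Z * Z.index ≤ Nat.card Z * 4 := Nat.mul_le_mul_left _ hZidx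
        omega
    have e : {M : Subgroup Q // M.index = 2 ∧ ∀ a ∈ M, ∀ b ∈ M, a * b = b * a} ≃ MaxOver 2 Z :=
      Equiv.subtypeEquivRight (fun M => and_congr_right (fun hM => hiff M hM))
    rw [Nat.card_congr e]
    exact odd_card_maxOver hP Z hZtop

/-- a group of order sixteen with commutator subgroup of order two has an odd number of abelian
subgroups of index two. -/
theorem odd_abelian_max [Finite Q] (hQ : Nat.card Q = 16) (hc : Nat.card (commutator Q) = 2) :
    Odd (Nat.card {M : Subgroup Q // M.index = 2 ∧ ∀ a ∈ M, ∀ b ∈ M, a * b = b * a}) := by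
  have hP : IsPGroup 2 Q := IsPGroup.of_card (n := 4) (by rw [hQ]; norm_num)
  obtain ⟨z', hz'1, hz'u⟩ := (Nat.card_eq_two_iff' (1 : commutator Q)).mp hc
  obtain ⟨z, hzdef⟩ : ∃ z : Q, z = (z' : Q) := ⟨_, rfl⟩
  have hzmem : z ∈ commutator Q := hzdef ▸ z'.2
  have hz1 : z ≠ 1 := fun h => hz'1 (Subtype.ext (hzdef ▸ h))
  have hmem : ∀ w ∈ commutator Q, w = 1 ∨ w = z := by
    intro w hw
    by_cases h1 : w = 1
    · exact Or.inl h1
    · right
      have := hz'u ⟨w, hw⟩ (fun h => h1 (congrArg Subtype.val h))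
      rw [hzdef]
      exact congrArg Subtype.val this
  have hzc : ∀ g : Q, g * z = z * g := by
    intro g
    have h1 : g * z * g⁻¹ ∈ commutator Q :=
      (inferInstance : (commutator Q).Normal).conj_mem z hzmem g
    rcases hmem _ h1 with h | h
    · exfalso; apply hz1
      have : z = g⁻¹ * (g * z * g⁻¹) * g := by group
      rw [this, h]; group
    · calc g * z = g * z * g⁻¹ * g := by group
        _ = z * g := by rw [h]
  have hz2 : z * z = 1 := by
    have h1 : z * z ∈ commutator Q := mul_mem hzmem hzmem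
    rcases hmem _ h1 with h | h
    · exact h
    · exfalso; apply hz1
      exact mul_left_cancel (a := z) (by rw [h, mul_one])
  obtain ⟨x, y, hxy⟩ : ∃ x y : Q, y * x ≠ x * y := by
    by_contra hcon
    push Not at hcon
    have : commutator Q = ⊥ := commutator_eq_bot_of_comm (fun a b => hcon b a)
    rw [this] at hc
    simp at hc
  have hx : ∀ g : Q, g * x = x * g ∨ g * x = z * (x * g) := by
    intro g
    have h1 : ⁅g, x⁆ ∈ commutator Q := by
      rw [commutator_def]
      exact Subgroup.commutator_mem_commutator (Subgroup.mem_top g) (Subgroup.mem_top x)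
    rw [commutatorElement_def] at h1
    rcases hmem _ h1 with h | h
    · left
      calc g * x = g * x * g⁻¹ * x⁻¹ * x * g := by group
        _ = x * g := by rw [h]; group
    · right
      calc g * x = g * x * g⁻¹ * x⁻¹ * (x * g) := by group
        _ = z * (x * g) := by rw [h]
  obtain ⟨C, hCdef⟩ : ∃ C : Subgroup Q, C = Subgroup.centralizer {x} := ⟨_, rfl⟩
  have hCidx : C.index = 2 := hCdef ▸ index_centralizer_eq_two x z hzc hz2 hx y hxy
  have hCmem : ∀ g : Q, g ∈ C ↔ g * x = x * g := fun g => hCdef ▸ mem_centralizer_single x g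
  have hcardC : Nat.card C = 8 := by
    have := C.card_mul_index
    rw [hCidx, hQ] at this
    omega
  have hCc : ∀ a ∈ C, ∀ b ∈ C, a * b = b * a := by
    obtain ⟨Z₀, hZ₀⟩ : ∃ Z₀ : Subgroup Q, Z₀ = Subgroup.closure {x, z} := ⟨_, rfl⟩
    have hxZ : x ∈ Z₀ := hZ₀ ▸ Subgroup.subset_closure (by simp)
    have hzZ : z ∈ Z₀ := hZ₀ ▸ Subgroup.subset_closure (by simp)
    have hZC : Z₀ ≤ C := by
      rw [hZ₀, Subgroup.closure_le]
      intro w hw
      rcases hw with rfl | hw
      · exact (hCmem _).mpr rfl
      · rw [Set.mem_singleton_iff] at hw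
        rw [hw]; exact (hCmem _).mpr (hzc x).symm
    have hZcent : ∀ w ∈ Z₀, ∀ m ∈ C, w * m = m * w := by
      intro w hw m hm
      have hle : Z₀ ≤ Subgroup.centralizer (C : Set Q) := by
        rw [hZ₀, Subgroup.closure_le]
        intro w hw
        rcases hw with rfl | hw
        · rw [SetLike.mem_coe, Subgroup.mem_centralizer_iff]
          intro h hh
          exact (hCmem h).mp hh
        · rw [Set.mem_singleton_iff] at hw
          rw [hw, SetLike.mem_coe, Subgroup.mem_centralizer_iff]
          intro h _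
          exact hzc h
      exact (Subgroup.mem_centralizer_iff.mp (hle hw) m hm).symm
    have hdvd : Nat.card Z₀ ∣ 2 ^ 3 := by
      have := Subgroup.card_dvd_of_le hZC
      rw [hcardC] at this
      exact this
    obtain ⟨j, hj3, hj⟩ := (Nat.dvd_prime_pow Nat.prime_two).mp hdvd
    have hne1 : Nat.card Z₀ ≠ 1 := by
      intro h1
      have hbot : Z₀ = ⊥ := Subgroup.eq_bot_of_card_eq Z₀ h1
      rw [hbot, Subgroup.mem_bot] at hxZ
      apply hxy
      rw [hxZ, mul_one, one_mul]
    have hne2 : Nat.card Z₀ ≠ 2 := by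
      intro h2
      obtain ⟨w, -, hwu⟩ := (Nat.card_eq_two_iff' (1 : Z₀)).mp h2
      have hxw := hwu ⟨x, hxZ⟩ (fun h => by
        have hx1 : x = 1 := congrArg Subtype.val h
        apply hxy
        rw [hx1, mul_one, one_mul])
      have hzw := hwu ⟨z, hzZ⟩ (fun h => hz1 (congrArg Subtype.val h))
      have hxz : x = z := congrArg Subtype.val (hxw.trans hzw.symm)
      apply hxy
      rw [hxz]
      exact hzc y
    have hj2 : 2 ≤ j := by
      by_contra hcon
      push Not at hcon
      interval_cases j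
      · exact hne1 (by rw [hj]; norm_num)
      · exact hne2 (by rw [hj]; norm_num)
    apply comm_of_central_index_two C Z₀ hZC hZcent
    rw [hcardC, hj]
    have : (2 : ℕ) ^ 2 ≤ 2 ^ j := Nat.pow_le_pow_right (by norm_num) hj2
    omega
  exact odd_abelian_index_two hP ⟨x, y, hxy⟩ C hCidx hCc

end Q16

end Cfsg.Agent.Lib.Helper68.Kul
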