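import Mathlib
import Cfsg.Agent.Lib.Helper68.KulQ16
import Cfsg.Agent.Lib.Helper73.CyclicIndexTwo

set_option autoImplicit false

/-!
A noncyclic `2`-group whose commutator quotient is not of order four has an even number of
maximal subgroups with commutator quotient of order four.
-/

namespace Cfsg.Agent.Lib.Helper68.Kul

open Cfsg.Agent.Lib.Helper69 Cfsg.Agent.Lib.Helper73

open scoped commutatorElement

universe u

section CaseB

/-- the commutator subgroup lies in every subgroup of index two. -/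
theorem commutator_le_of_index_eq_two {Y : Type*} [Group Y] (M : Subgroup Y) (hM : M.index = 2) :
    commutator Y ≤ M := by
  rw [commutator_def, Subgroup.commutator_le]
  intro a _ b _
  rw [commutatorElement_def, Subgroup.mul_mem_iff_of_index_two hM,
    Subgroup.mul_mem_iff_of_index_two hM, Subgroup.mul_mem_iff_of_index_two hM, inv_mem_iff,
    inv_mem_iff]
  tauto

theorem card_commutator_sub {Y : Type*} [Group Y] (M : Subgroup Y) :
    Nat.card (⁅M, M⁆ : Subgroup Y) = Nat.card (commutator M) := by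
  rw [← Subgroup.map_subtype_commutator, card_map_subtype]

theorem T_iff_card {Y : Type*} [Group Y] [Finite Y] {n : ℕ} (hn : 3 ≤ n)
    (hY : Nat.card Y = 2 ^ n) (M : Subgroup Y) (hM : M.index = 2) :
    (commutator M).index = 4 ↔ Nat.card (⁅M, M⁆ : Subgroup Y) = 2 ^ (n - 3) := by
  haveI : Fact (Nat.Prime 2) := ⟨Nat.prime_two⟩
  have hcM := (card_of_index_eq_prime 2 n hY M hM).1
  rw [card_commutator_sub]
  have h1 := (commutator M).card_mul_index
  rw [hcM] at h1
  have e : (2 : ℕ) ^ (n - 1) = 2 ^ (n - 3) * 4 := by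
    have : n - 1 = (n - 3) + 2 := by omega
    rw [this, pow_add]
    norm_num
  have hpos : 0 < 2 ^ (n - 3) := by positivity
  constructor
  · intro h4
    rw [h4, e] at h1
    exact Nat.eq_of_mul_eq_mul_right (by norm_num) h1
  · intro hc
    rw [hc, e] at h1
    exact Nat.eq_of_mul_eq_mul_left hpos h1

/-- a cyclic normal `2`-subgroup has a normal subgroup of index two in it that contains all its
proper subgroups. -/
theorem exists_frattini_cyclic {Y : Type*} [Group Y] [Finite Y] (D : Subgroup Y) [hDn : D.Normal]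
    (hDc : IsCyclic D) {m : ℕ} (hD : Nat.card D = 2 ^ (m + 1)) :
    ∃ D₁ : Subgroup Y, D₁.Normal ∧ D₁ ≤ D ∧ Nat.card D₁ = 2 ^ m ∧
      ∀ H : Subgroup Y, H ≤ D → H ≠ D → H ≤ D₁ := by
  obtain ⟨g, hg⟩ := hDc.exists_generator
  obtain ⟨d, hd⟩ : ∃ d : Y, d = (g : Y) := ⟨_, rfl⟩
  have hdD : d ∈ D := hd ▸ g.2
  have hDd : ∀ w ∈ D, ∃ k : ℕ, w = d ^ k := by
    intro w hw
    have h1 := hg ⟨w, hw⟩
    rw [← mem_powers_iff_mem_zpowers] at h1
    obtain ⟨k, hk⟩ := (Submonoid.mem_powers_iff _ _).mp h1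
    refine ⟨k, ?_⟩
    have := congrArg Subtype.val hk
    rw [hd]
    simpa using this.symm
  have hDeq : D = Subgroup.zpowers d := by
    apply le_antisymm
    · intro w hw
      obtain ⟨k, rfl⟩ := hDd w hw
      exact Subgroup.npow_mem_zpowers d k
    · exact Subgroup.zpowers_le.mpr hdD
  have hord : orderOf d = 2 ^ (m + 1) := by
    rw [← Nat.card_zpowers, ← hDeq, hD]
  have hord2 : orderOf (d ^ 2) = 2 ^ m := by
    rw [(isOfFinOrder_of_finite d).orderOf_pow, hord]
    have e1 : Nat.gcd (2 ^ (m + 1)) 2 = 2 := Nat.gcd_eq_right (dvd_pow_self 2 (by omega))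
    rw [e1, pow_succ, Nat.mul_div_cancel _ (by norm_num)]
  refine ⟨Subgroup.zpowers (d ^ 2), ?_, ?_, ?_, ?_⟩
  · constructor
    intro w hw t
    obtain ⟨k, rfl⟩ := Subgroup.mem_zpowers_iff.mp hw
    have h1 : t * d * t⁻¹ ∈ D := hDn.conj_mem d hdD t
    obtain ⟨j, hj⟩ := hDd _ h1
    have h2 : t * (d ^ 2) ^ k * t⁻¹ = ((d ^ 2) ^ j) ^ k := by
      rw [← conj_zpow, ← _root_.conj_pow, hj, ← pow_mul, ← pow_mul, mul_comm]
    rw [h2]
    exact zpow_mem (Subgroup.npow_mem_zpowers _ _) _
  · exact Subgroup.zpowers_le.mpr (pow_mem hdD 2)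
  · rw [Nat.card_zpowers, hord2]
  · intro H hHD hne w hw
    have hdvd : Nat.card H ∣ 2 ^ (m + 1) := hD ▸ Subgroup.card_dvd_of_le hHD
    obtain ⟨i, hi, hiH⟩ := (Nat.dvd_prime_pow Nat.prime_two).mp hdvd
    have him : i ≤ m := by
      by_contra hcon
      have : i = m + 1 := by omega
      apply hne
      exact Subgroup.eq_of_le_of_card_ge hHD (by rw [hD, hiH, this])
    have h1' : orderOf w ∣ 2 ^ m := by
      have := orderOf_dvd_natCard (⟨w, hw⟩ : H)
      rw [Subgroup.orderOf_mk, hiH] at this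
      exact this.trans (pow_dvd_pow 2 him)
    obtain ⟨k, rfl⟩ := hDd w (hHD hw)
    have h2 : d ^ (k * 2 ^ m) = 1 := by
      rw [pow_mul]; exact orderOf_dvd_iff_pow_eq_one.mp h1'
    have h3 : 2 ^ (m + 1) ∣ k * 2 ^ m := hord ▸ orderOf_dvd_of_pow_eq_one h2
    have h4 : 2 ∣ k := by
      rw [pow_succ, mul_comm] at h3
      exact Nat.dvd_of_mul_dvd_mul_right (by positivity) h3
    obtain ⟨j, rfl⟩ := h4
    rw [pow_mul]
    exact Subgroup.npow_mem_zpowers _ _

/-- **Case B**: if the commutator quotient of the noncyclic `2`-group `X` is not of order four,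
the number of maximal subgroups with commutator quotient of order four is even. -/
theorem T_even_B {X : Type u} [Group X] [Finite X] {n : ℕ} (hn4 : 4 ≤ n)
    (hX : Nat.card X = 2 ^ n) (hnc : ¬ IsCyclic X) (hT : (commutator X).index ≠ 4) :
    Even (Nat.card {M : Subgroup X // M.index = 2 ∧ (commutator M).index = 4}) := by
  classical
  haveI : Fact (Nat.Prime 2) := ⟨Nat.prime_two⟩
  have hP : IsPGroup 2 X := IsPGroup.of_card hX
  by_cases hex : ∃ M₀ : Subgroup X, M₀.index = 2 ∧ (commutator M₀).index = 4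
  swap
  · haveI : IsEmpty {M : Subgroup X // M.index = 2 ∧ (commutator M).index = 4} :=
      ⟨fun M => hex ⟨M.1, M.2⟩⟩
    rw [Nat.card_of_isEmpty]
    exact ⟨0, rfl⟩
  obtain ⟨M₀, hM₀, hT₀⟩ := hex
  obtain ⟨D, hDdef⟩ : ∃ D : Subgroup X, D = commutator X := ⟨_, rfl⟩
  haveI hDn : D.Normal := by rw [hDdef]; infer_instance
  have hD₀le : (⁅M₀, M₀⁆ : Subgroup X) ≤ D := by
    rw [hDdef, commutator_def]
    exact Subgroup.commutator_mono le_top le_top
  have hD₀card : Nat.card (⁅M₀, M₀⁆ : Subgroup X) = 2 ^ (n - 3) :=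
    (T_iff_card (by omega) hX M₀ hM₀).mp hT₀
  have hDcard : Nat.card D = 2 ^ (n - 3) := by
    obtain ⟨M₁, M₂, h1, h2, g, hg1, hg2⟩ := exists_two_index_p hP hnc
    have hne : M₁ ≠ M₂ := by
      rintro rfl
      exact hg2 hg1
    have hinf := (card_inf_of_ne 2 n hX M₁ M₂ h1 h2 hne).1
    have hDle : D ≤ M₁ ⊓ M₂ := by
      rw [hDdef]
      exact le_inf (commutator_le_of_index_eq_two M₁ h1) (commutator_le_of_index_eq_two M₂ h2)
    have hd1 : Nat.card D ∣ 2 ^ (n - 2) := hinf ▸ Subgroup.card_dvd_of_le hDle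
    have hd2 : 2 ^ (n - 3) ∣ Nat.card D := hD₀card ▸ Subgroup.card_dvd_of_le hD₀le
    obtain ⟨j, hj, hjD⟩ := (Nat.dvd_prime_pow Nat.prime_two).mp hd1
    rw [hjD] at hd2
    have hj3 : n - 3 ≤ j := (Nat.pow_dvd_pow_iff_le_right (by norm_num)).mp hd2
    have hj2 : j ≠ n - 2 := by
      intro hj2
      apply hT
      have h3 := D.card_mul_index
      rw [hjD, hj2, hX] at h3
      have e : (2 : ℕ) ^ n = 2 ^ (n - 2) * 4 := by
        have : n = (n - 2) + 2 := by omega
        conv_lhs => rw [this, pow_add]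
        norm_num
      rw [e] at h3
      have h5 : D.index = 4 := Nat.eq_of_mul_eq_mul_left (by positivity) h3
      rw [hDdef] at h5
      exact h5
    have : j = n - 3 := by omega
    rw [hjD, this]
  have hD₀eq : (⁅M₀, M₀⁆ : Subgroup X) = D :=
    Subgroup.eq_of_le_of_card_ge hD₀le (by rw [hDcard, hD₀card])
  have hDc : IsCyclic D := by
    obtain ⟨A₀, hA₀c, hA₀i⟩ := exists_cyclic_index_two M₀ (hP.to_subgroup M₀) hT₀
    have hle : commutator M₀ ≤ A₀ := commutator_le_of_index_eq_two A₀ hA₀i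
    have hc1 : IsCyclic (commutator M₀) := Subgroup.isCyclic_of_le hle
    have hc2 := (isCyclic_map_subtype M₀ (commutator M₀)).mpr hc1
    rw [Subgroup.map_subtype_commutator, hD₀eq] at hc2
    exact hc2
  obtain ⟨D₁, hD₁n, hD₁D, hD₁card, hD₁max⟩ :=
    exists_frattini_cyclic D hDc (m := n - 4) (by rw [hDcard]; congr 1; omega)
  haveI := hD₁n
  have hsurj : Function.Surjective (QuotientGroup.mk' D₁) := QuotientGroup.mk'_surjective _
  have hker : (QuotientGroup.mk' D₁).ker = D₁ := QuotientGroup.ker_mk' D₁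
  have hQcard : Nat.card (X ⧸ D₁) = 16 := by
    have h1 := Subgroup.card_eq_card_quotient_mul_card_subgroup D₁
    rw [hX, hD₁card] at h1
    have e : (2 : ℕ) ^ n = 16 * 2 ^ (n - 4) := by
      have : n = 4 + (n - 4) := by omega
      conv_lhs => rw [this, pow_add]
      norm_num
    rw [e] at h1
    exact (Nat.eq_of_mul_eq_mul_right (by positivity) h1).symm
  have hDidx : D.index = 8 := by
    have h3 := D.card_mul_index
    rw [hDcard, hX] at h3
    have e : (2 : ℕ) ^ n = 2 ^ (n - 3) * 8 := by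
      have : n = (n - 3) + 3 := by omega
      conv_lhs => rw [this, pow_add]
      norm_num
    rw [e] at h3
    exact Nat.eq_of_mul_eq_mul_left (by positivity) h3
  have hQc : Nat.card (commutator (X ⧸ D₁)) = 2 := by
    have hmap : commutator (X ⧸ D₁) = D.map (QuotientGroup.mk' D₁) := by
      rw [hDdef, commutator_def, commutator_def, Subgroup.map_commutator,
        Subgroup.map_top_of_surjective _ hsurj]
    have hidx : (D.map (QuotientGroup.mk' D₁)).index = 8 := by
      rw [Subgroup.index_map_eq D hsurj (hker.le.trans hD₁D), hDidx]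
    have h4 := (D.map (QuotientGroup.mk' D₁)).card_mul_index
    rw [hidx, hQcard, ← hmap] at h4
    omega
  have hodd := odd_abelian_max hQcard hQc
  have hK1 : ∀ M : Subgroup X, M.index = 2 → D₁ ≤ M := fun M hM =>
    hD₁D.trans (hDdef ▸ commutator_le_of_index_eq_two M hM)
  have hK2 : ∀ M : Subgroup X, M.index = 2 →
      (¬ (commutator M).index = 4 ↔ (⁅M, M⁆ : Subgroup X) ≤ D₁) := by
    intro M hM
    rw [T_iff_card (by omega) hX M hM]
    have hle : (⁅M, M⁆ : Subgroup X) ≤ D := by
      rw [hDdef, commutator_def]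
      exact Subgroup.commutator_mono le_top le_top
    constructor
    · intro hne
      apply hD₁max _ hle
      intro heq
      exact hne (by rw [heq, hDcard])
    · intro hle1 hcard
      have := Subgroup.card_dvd_of_le hle1
      rw [hcard, hD₁card] at this
      have := (Nat.pow_dvd_pow_iff_le_right (by norm_num)).mp this
      omega
  have hK3 : ∀ M : Subgroup X, ((⁅M, M⁆ : Subgroup X) ≤ D₁ ↔
      ∀ a ∈ M.map (QuotientGroup.mk' D₁), ∀ b ∈ M.map (QuotientGroup.mk' D₁),
        a * b = b * a) := by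
    intro M
    constructor
    · intro hle a ha b hb
      obtain ⟨a', ha', rfl⟩ := Subgroup.mem_map.mp ha
      obtain ⟨b', hb', rfl⟩ := Subgroup.mem_map.mp hb
      have h1 : ⁅a', b'⁆ ∈ D₁ := hle (Subgroup.commutator_mem_commutator ha' hb')
      have h2 : (QuotientGroup.mk' D₁) ⁅a', b'⁆ = 1 := by
        rw [← MonoidHom.mem_ker, hker]; exact h1
      rw [map_commutatorElement, commutatorElement_eq_one_iff_mul_comm] at h2
      exact h2
    · intro hc
      rw [Subgroup.commutator_le]
      intro a' ha' b' hb'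
      rw [← hker, MonoidHom.mem_ker, map_commutatorElement,
        commutatorElement_eq_one_iff_mul_comm]
      exact hc _ (Subgroup.mem_map_of_mem _ ha') _ (Subgroup.mem_map_of_mem _ hb')
  let e : {M : Subgroup X // M.index = 2 ∧ ¬ (commutator M).index = 4} ≃
      {N : Subgroup (X ⧸ D₁) // N.index = 2 ∧ ∀ a ∈ N, ∀ b ∈ N, a * b = b * a} :=
    { toFun := fun M => ⟨M.1.map (QuotientGroup.mk' D₁),
        by rw [Subgroup.index_map_eq M.1 hsurj (hker.le.trans (hK1 M.1 M.2.1))]; exact M.2.1,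
        (hK3 M.1).mp ((hK2 M.1 M.2.1).mp M.2.2)⟩
      invFun := fun N => ⟨N.1.comap (QuotientGroup.mk' D₁),
        by rw [Subgroup.index_comap_of_surjective _ hsurj]; exact N.2.1,
        by
          have hi : (N.1.comap (QuotientGroup.mk' D₁)).index = 2 := by
            rw [Subgroup.index_comap_of_surjective _ hsurj]; exact N.2.1
          rw [hK2 _ hi, hK3, Subgroup.map_comap_eq_self_of_surjective hsurj]
          exact N.2.2⟩
      left_inv := fun M => Subtype.ext
        (Subgroup.comap_map_eq_self (hker.le.trans (hK1 M.1 M.2.1)))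
      right_inv := fun N => Subtype.ext (Subgroup.map_comap_eq_self_of_surjective hsurj N.1) }
  have hoddN : Odd (Nat.card {M : Subgroup X // M.index = 2 ∧ ¬ (commutator M).index = 4}) := by
    rw [Nat.card_congr e]; exact hodd
  have hsum := Nat.card_congr
    (Equiv.sumCompl (fun M : MaxOver 2 (⊥ : Subgroup X) => (commutator M.1).index = 4))
  rw [Nat.card_sum] at hsum
  have e1 : {M : MaxOver 2 (⊥ : Subgroup X) // (commutator M.1).index = 4} ≃
      {M : Subgroup X // M.index = 2 ∧ (commutator M).index = 4} :=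
    ⟨fun M => ⟨M.1.1, M.1.2.1, M.2⟩, fun M => ⟨⟨M.1, M.2.1, bot_le⟩, M.2.2⟩,
      fun _ => rfl, fun _ => rfl⟩
  have e2 : {M : MaxOver 2 (⊥ : Subgroup X) // ¬ (commutator M.1).index = 4} ≃
      {M : Subgroup X // M.index = 2 ∧ ¬ (commutator M).index = 4} :=
    ⟨fun M => ⟨M.1.1, M.1.2.1, M.2⟩, fun M => ⟨⟨M.1, M.2.1, bot_le⟩, M.2.2⟩,
      fun _ => rfl, fun _ => rfl⟩
  rw [Nat.card_congr e1, Nat.card_congr e2] at hsum
  have htot := odd_card_maxOver hP ⊥ (bot_ne_top_of_not_cyclic hnc)
  rw [← hsum] at htot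
  rw [Nat.odd_iff] at htot hoddN
  rw [Nat.even_iff]
  omega

/-- the number of maximal subgroups with commutator quotient of order four of a noncyclic
`2`-group of order at least sixteen is even. -/
theorem T_even_all {X : Type u} [Group X] [Finite X] {n : ℕ} (hn4 : 4 ≤ n)
    (hX : Nat.card X = 2 ^ n) (hnc : ¬ IsCyclic X) :
    Even (Nat.card {M : Subgroup X // M.index = 2 ∧ (commutator M).index = 4}) := by
  by_cases hT : (commutator X).index = 4
  · obtain ⟨A, hAc, hA⟩ := exists_cyclic_index_two X (IsPGroup.of_card hX) hT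
    obtain ⟨a, b, r, hcm, -⟩ := exists_CM (by omega) hX A hA hAc
    exact hcm.T_even hn4 hnc
  · exact T_even_B hn4 hX hnc hT

end CaseB

end Cfsg.Agent.Lib.Helper68.Kul
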