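import Mathlib
import Cfsg.Agent.Lib.Helper68.KulCaseB

set_option autoImplicit false

/-!
Kulakoff's congruence for `p = 2`: in a noncyclic group of order `2 ^ n` the number of subgroups
of order `2 ^ k` (`1 ≤ k < n`) is `≡ 3 (mod 4)`, except that it is `≡ 1 (mod 4)` when the
commutator quotient has order four (maximal class) and `k ≤ n - 2`.
-/

namespace Cfsg.Agent.Lib.Helper68.Kul

open Cfsg.Agent.Lib.Helper69 Cfsg.Agent.Lib.Helper73

universe u

theorem kul_arith (β γ : ℕ)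
    (hμ : ((β + γ : ℕ) : ZMod (2 ^ 2)) = 1 + ((2 : ℕ) : ZMod (2 ^ 2))) :
    (β : ZMod (2 ^ 2)) + 3 * (γ : ZMod (2 ^ 2)) - ((2 : ℕ) : ZMod (2 ^ 2)) =
      if Odd β then 1 else 3 := by
  have h4 : (4 : ZMod (2 ^ 2)) = 0 := by decide
  push_cast at hμ ⊢
  have hγ : (γ : ZMod (2 ^ 2)) = 3 - β := by linear_combination hμ
  rw [hγ]
  rcases Nat.even_or_odd β with ⟨t, ht⟩ | ⟨t, ht⟩
  · rw [if_neg (by rw [Nat.not_odd_iff_even]; exact ⟨t, ht⟩)]
    subst ht
    push_cast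
    linear_combination (1 - (t : ZMod (2 ^ 2))) * h4
  · rw [if_pos ⟨t, ht⟩]
    subst ht
    push_cast
    linear_combination (1 - (t : ZMod (2 ^ 2))) * h4

/-- **Kulakoff for `p = 2`**, with the exceptional case made explicit. -/
theorem kul2 : ∀ (n : ℕ) (G : Type u) [Group G] [Finite G], Nat.card G = 2 ^ n → ¬ IsCyclic G →
    ∀ k : ℕ, 1 ≤ k → k < n →
    (Nat.card (OrdSub G (2 ^ k)) : ZMod (2 ^ 2)) =
      if ((commutator G).index = 4 ∧ k + 2 ≤ n) then 1 else 3 := by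
  intro n
  induction n using Nat.strong_induction_on with
  | _ n ih =>
  intro G _ _ hG hnc k hk1 hkn
  classical
  haveI : Fact (Nat.Prime 2) := ⟨Nat.prime_two⟩
  have hP : IsPGroup 2 G := IsPGroup.of_card hG
  by_cases hk : k + 1 = n
  · rw [if_neg (by omega), kul_top 2 n G hG hnc k hk]
    norm_num
  have hkn2 : k + 2 ≤ n := by omega
  haveI : Fintype (MaxOver 2 (⊥ : Subgroup G)) := Fintype.ofFinite _
  rw [kul_reduction 2 n G hG hnc k hkn2]
  obtain ⟨c, hcdef⟩ : ∃ c : MaxOver 2 (⊥ : Subgroup G) → Prop, ∀ M, c M ↔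
      (IsCyclic M.1 ∨ ((commutator M.1).index = 4 ∧ k + 3 ≤ n)) := ⟨_, fun _ => Iff.rfl⟩
  have hval : ∀ M : MaxOver 2 (⊥ : Subgroup G),
      (Nat.card (OrdSub M.1 (2 ^ k)) : ZMod (2 ^ 2)) = if c M then 1 else 3 := by
    intro M
    have hcM := (card_of_index_eq_prime 2 n hG M.1 M.2.1).1
    by_cases hc : IsCyclic M.1
    · rw [if_pos ((hcdef M).mpr (Or.inl hc))]
      haveI := hc
      rw [card_ordSub_of_isCyclic 2 k (by rw [hcM]; exact pow_dvd_pow 2 (by omega))]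
      simp
    · have h1 := ih (n - 1) (by omega) M.1 hcM hc k hk1 (by omega)
      rw [h1]
      have hiff : ((commutator M.1).index = 4 ∧ k + 2 ≤ n - 1) ↔ c M := by
        rw [hcdef]
        constructor
        · rintro ⟨h, h'⟩; exact Or.inr ⟨h, by omega⟩
        · rintro (h | ⟨h, h'⟩)
          · exact absurd h hc
          · exact ⟨h, by omega⟩
      by_cases hcm : c M
      · rw [if_pos hcm, if_pos (hiff.mpr hcm)]
      · rw [if_neg hcm, if_neg (fun h => hcm (hiff.mp h))]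
  have hsum : ∑ M : MaxOver 2 (⊥ : Subgroup G), (Nat.card (OrdSub M.1 (2 ^ k)) : ZMod (2 ^ 2))
      = (Nat.card {M : MaxOver 2 (⊥ : Subgroup G) // c M} : ZMod (2 ^ 2))
        + 3 * (Nat.card {M : MaxOver 2 (⊥ : Subgroup G) // ¬ c M} : ZMod (2 ^ 2)) := by
    rw [Finset.sum_congr rfl (fun M _ => hval M), Finset.sum_ite, Finset.sum_const,
      Finset.sum_const, Nat.card_eq_fintype_card, Nat.card_eq_fintype_card,
      Fintype.card_subtype, Fintype.card_subtype]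
    simp [nsmul_eq_mul, mul_comm]
  have hμ : ((Nat.card {M : MaxOver 2 (⊥ : Subgroup G) // c M}
      + Nat.card {M : MaxOver 2 (⊥ : Subgroup G) // ¬ c M} : ℕ) : ZMod (2 ^ 2))
      = 1 + ((2 : ℕ) : ZMod (2 ^ 2)) := by
    have h1 := Nat.card_congr (Equiv.sumCompl c)
    rw [Nat.card_sum] at h1
    rw [h1]
    exact card_maxOver_bot_cast 2 hP hnc
  rw [hsum, kul_arith _ _ hμ]
  have hn3 : 3 ≤ n := by omega
  have hβ : Odd (Nat.card {M : MaxOver 2 (⊥ : Subgroup G) // c M}) ↔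
      (commutator G).index = 4 := by
    rw [← cyc_odd_iff hn3 hG hnc]
    by_cases hk3 : k + 3 ≤ n
    · have e0 := Nat.card_congr (Equiv.sumCompl
        (fun x : {M : MaxOver 2 (⊥ : Subgroup G) // c M} => IsCyclic x.1.1))
      rw [Nat.card_sum] at e0
      have e1 : {x : {M : MaxOver 2 (⊥ : Subgroup G) // c M} // IsCyclic x.1.1} ≃
          {M : Subgroup G // M.index = 2 ∧ IsCyclic M} :=
        ⟨fun x => ⟨x.1.1.1, x.1.1.2.1, x.2⟩,
          fun M => ⟨⟨⟨M.1, M.2.1, bot_le⟩, (hcdef _).mpr (Or.inl M.2.2)⟩, M.2.2⟩,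
          fun _ => rfl, fun _ => rfl⟩
      have e2 : {x : {M : MaxOver 2 (⊥ : Subgroup G) // c M} // ¬ IsCyclic x.1.1} ≃
          {M : Subgroup G // M.index = 2 ∧ (commutator M).index = 4} :=
        ⟨fun x => ⟨x.1.1.1, x.1.1.2.1, (((hcdef _).mp x.1.2).resolve_left x.2).1⟩,
          fun M => ⟨⟨⟨M.1, M.2.1, bot_le⟩, (hcdef _).mpr (Or.inr ⟨M.2.2, hk3⟩)⟩, fun hc =>
            not_T_of_isCyclic (m := n - 1) (by omega)
              (card_of_index_eq_prime 2 n hG M.1 M.2.1).1 hc M.2.2⟩,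
          fun _ => rfl, fun _ => rfl⟩
      rw [Nat.card_congr e1, Nat.card_congr e2] at e0
      have hev := T_even_all (by omega : 4 ≤ n) hG hnc
      rw [← e0]
      rw [Nat.odd_iff, Nat.odd_iff]
      rw [Nat.even_iff] at hev
      omega
    · have e1 : {M : MaxOver 2 (⊥ : Subgroup G) // c M} ≃
          {M : Subgroup G // M.index = 2 ∧ IsCyclic M} :=
        ⟨fun x => ⟨x.1.1, x.1.2.1, ((hcdef _).mp x.2).resolve_right (fun h => hk3 h.2)⟩,
          fun M => ⟨⟨M.1, M.2.1, bot_le⟩, (hcdef _).mpr (Or.inl M.2.2)⟩,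
          fun _ => rfl, fun _ => rfl⟩
      rw [Nat.card_congr e1]
  by_cases hT : (commutator G).index = 4
  · rw [if_pos (hβ.mpr hT), if_pos ⟨hT, hkn2⟩]
  · rw [if_neg (fun h => hT (hβ.mp h)), if_neg (fun h => hT h.1)]

end Cfsg.Agent.Lib.Helper68.Kul
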